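import Cfsg.Agent.KSG.OrthCore

/-! Beisiegel's bound for semi-extraspecial groups. -/

set_option autoImplicit false

namespace CL.N4

open Module
open scoped commutatorElement

universe u

/-- PROOF. Suppose `n = finrank V < 2 m`, `m = finrank W`. Bases `e` of `V`, `ν k` (`k : Fin m`) of
the dual of `W`. `R = MvPolynomial (Fin m) F`, `A i j = ∑ k, X k * C (ν k (b (e i) (e j)))`,
`D = det A`, total degree `≤ n`. `eval c D = det` of the form `(∑ c k • ν k) ∘ b`, which is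
non-degenerate for `c ≠ 0` (`onto`) and zero for `c = 0` (`n > 0`). So `D ≠ 0` (`m > 0`), over
`K = FractionRing R` the alternating form with matrix `A` is non-degenerate, so `D` is a square
in `K` (`CL.Orth.isSquare_det_alt`), so `D = E * E` in `R` (`R` is a UFD, integrally closed),
`2 * E.totalDegree ≤ n` (`MvPolynomial.totalDegree_mul_of_isDomain`), `E.totalDegree < m`, and
`char_dvd_card_solutions` gives `p ∣ 1`. -/
theorem bei {F V W : Type*} [Field F] [Finite F] [AddCommGroup V] [Module F V]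
    [FiniteDimensional F V] [AddCommGroup W] [Module F W] [FiniteDimensional F W] [Nontrivial V]
    (b : V →ₗ[F] V →ₗ[F] W) (alt : ∀ x, b x x = 0)
    (onto : ∀ x ≠ 0, Function.Surjective (b x)) : 2 * finrank F W ≤ finrank F V := by
  classical
  by_contra! lt
  let e := finBasis F V
  let w := finBasis F W
  let R := MvPolynomial (Fin (finrank F W)) F
  let A : Matrix (Fin (finrank F V)) (Fin (finrank F V)) R :=
    fun i j => ∑ k, MvPolynomial.X k * MvPolynomial.C (w.equivFun (b (e i) (e j)) k)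
  have pos : 0 < finrank F V := finrank_pos
  have : Nonempty (Fin (finrank F V)) := ⟨⟨0, pos⟩⟩
  have h0 : ∀ c, MvPolynomial.eval c A.det = 0 ↔ c = 0 := fun c => by
    have : (MvPolynomial.eval c).mapMatrix A = LinearMap.BilinForm.toMatrix e (b.compr₂ (w.constr F c)) := by
      ext i j
      rw [RingHom.mapMatrix_apply, Matrix.map_apply]
      simp [A, R, LinearMap.BilinForm.toMatrix_apply, Basis.constr_apply_fintype, mul_comm]
    rw [RingHom.map_det, this]
    refine ⟨fun h => ?_, fun h => ?_⟩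
    swap
    · rw [h, map_zero, show b.compr₂ (0 : W →ₗ[F] F) = 0 from rfl, map_zero, Matrix.det_zero]
    by_contra c0
    refine (LinearMap.BilinForm.nondegenerate_iff_det_ne_zero e).1 ?_ h
    refine (LinearMap.IsAlt.isRefl (B := b.compr₂ (w.constr F c)) fun x => by simp [alt]).nondegenerate_iff_separatingLeft.2
      fun x hx => by_contra fun x0 => c0 (funext fun k => ?_)
    obtain ⟨y, hy⟩ := onto x x0 (w k)
    simpa [hy] using hx y
  have D0 : A.det ≠ 0 := fun h => by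
    simpa using congrFun ((h0 1).1 (by rw [h, map_zero])) ⟨0, by omega⟩
  let K := FractionRing R
  have inj := IsFractionRing.injective R K
  have dt : (A.map (algebraMap R K)).det = algebraMap R K A.det := (RingHom.map_det _ A).symm
  have sq := CL.Orth.isSquare_det_alt (β := Matrix.toBilin' (A.map (algebraMap R K)))
    (LinearMap.BilinForm.nondegenerate_toBilin'_iff_det_ne_zero.2 (by rw [dt]; exact (map_ne_zero_iff _ inj).2 D0))
    (fun x => by
      rw [Matrix.toBilin'_apply, ← Finset.sum_product']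
      refine Finset.sum_ninvolution Prod.swap (fun a => ?_) (fun a h k => h ?_) (fun a => by simp) Prod.swap_swap
      · have : A a.2 a.1 = - A a.1 a.2 := by
          simp [A, ← LinearMap.IsAlt.neg (B := b) alt (e a.1) (e a.2)]
        simp only [Matrix.map_apply, Prod.fst_swap, Prod.snd_swap, this, map_neg]
        ring
      · have : A a.1 a.2 = 0 := by simp [A, show a.2 = a.1 from congrArg Prod.fst k, alt]
        simp [this])
    (Pi.basisFun K _)
  rw [LinearMap.BilinForm.toMatrix_basisFun, LinearMap.BilinForm.toMatrix'_toBilin', dt] at sq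
  obtain ⟨r, hr⟩ := sq
  obtain ⟨E, rfl⟩ := IsIntegrallyClosed.exists_algebraMap_eq_of_isIntegral_pow (R := R) (x := r) two_pos
    (by rw [pow_two, ← hr]; exact isIntegral_algebraMap)
  replace hr : A.det = E * E := inj (by rw [hr, map_mul])
  have E0 : E ≠ 0 := fun h => D0 (by rw [hr, h, mul_zero])
  have dg : A.det.totalDegree ≤ finrank F V := by
    rw [Matrix.det_apply']
    refine MvPolynomial.totalDegree_finsetSum_le fun σ _ => (MvPolynomial.totalDegree_mul _ _).trans ?_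
    rw [← map_intCast (MvPolynomial.C : F →+* R), MvPolynomial.totalDegree_C, zero_add]
    refine (MvPolynomial.totalDegree_finsetProd _ _).trans ((Finset.sum_le_card_nsmul _ _ 1 fun i _ => ?_).trans (by simp))
    exact MvPolynomial.totalDegree_finsetSum_le fun k _ => (MvPolynomial.totalDegree_mul _ _).trans (by simp)
  rw [hr, MvPolynomial.totalDegree_mul_of_isDomain E0 E0] at dg
  have := Fintype.ofFinite F
  have := char_dvd_card_solutions (ringChar F) (f := E) (by rw [Fintype.card_fin]; omega)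
  rw [Fintype.card_eq_one_iff.2 ⟨⟨0, by simpa [hr] using (h0 0).2 rfl⟩, fun x => Subtype.ext
    ((h0 x.1).1 (by rw [hr, map_mul, x.2, mul_zero]))⟩] at this
  exact CharP.ringChar_ne_one (Nat.dvd_one.1 this)

theorem Bei.add {p : ℕ} [Fact p.Prime] {V W : Type*} [AddCommGroup V] [AddCommGroup W] [Finite V] [Finite W] [Nontrivial V]
    (pV : ∀ v : V, p • v = 0) (pW : ∀ w : W, p • w = 0) (b : V → V → W) (l : ∀ x y z, b (x + y) z = b x z + b y z)
    (r : ∀ x y z, b x (y + z) = b x y + b x z) (alt : ∀ x, b x x = 0) (onto : ∀ x ≠ 0, Function.Surjective (b x)) :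
    Nat.card W ^ 2 ≤ Nat.card V := by
  have := AddCommGroup.zmodModule pV
  have := AddCommGroup.zmodModule pW
  have := bei (F := ZMod p) (LinearMap.mk₂ (ZMod p) b l (fun c x y => ZMod.map_smul (AddMonoidHom.mk' (b · y) (l · · y)) c x) r
    fun c x => ZMod.map_smul (AddMonoidHom.mk' (b x) (r x)) c) alt onto
  rw [natCard_eq_pow_finrank (K := ZMod p) (V := V), natCard_eq_pow_finrank (K := ZMod p) (V := W), ← pow_mul, mul_comm]
  exact Nat.pow_le_pow_right Nat.card_pos this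

/-- an abelian section as an additive group -/
theorem Bei.sec {G : Type u} [Group G] [Finite G] {X Y : Subgroup G} [X.Normal] (h : ⁅Y, Y⁆ ≤ X) :
    ∃ (V : Type u) (_ : AddCommGroup V) (_ : Finite V) (f : G → V), (∀ x ∈ Y, ∀ y ∈ Y, f (x * y) = f x + f y) ∧
      (∀ x ∈ Y, f x = 0 ↔ x ∈ X) ∧ (∀ v, ∃ x ∈ Y, f x = v) ∧ Nat.card V = X.relIndex Y := by
  classical
  let _ : CommGroup (Y ⧸ X.subgroupOf Y) := { (inferInstance : Group _) with
    mul_comm := by
      rintro ⟨a⟩ ⟨c⟩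
      exact commutatorElement_eq_one_iff_mul_comm.1 ((QuotientGroup.eq_one_iff ⁅a, c⁆).2
        (h (Subgroup.commutator_mem_commutator a.2 c.2))) }
  refine ⟨Additive (Y ⧸ X.subgroupOf Y), inferInstance, inferInstance,
    fun x => if k : x ∈ Y then Additive.ofMul (QuotientGroup.mk ⟨x, k⟩) else 0, fun x hx y hy => ?_, fun x hx => ?_, ?_, rfl⟩
  · simp only [dif_pos hx, dif_pos hy, dif_pos (mul_mem hx hy)]
    rfl
  · simp only [dif_pos hx]
    exact QuotientGroup.eq_one_iff _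
  · rintro ⟨a⟩
    exact ⟨a, a.2, dif_pos a.2⟩

/-- Group form. PROOF. WLOG `D < Z`. The commutator induces a bimultiplicative alternating map
`H/A × H/A → Z/D` (`Z/D` is central in `H/D`), onto for each fixed first entry `≠ 1`. Take
`x ∈ H \ A` with `x ^ p ∈ A`: `⁅x, g⁆ ^ p ≡ ⁅x ^ p, g⁆ ∈ D`, so `Z/D` has exponent `p`; then for
any `x ∈ H`, `⁅x ^ p, g⁆ ∈ D` for all `g`, so `x ^ p ∈ A`; also `⁅H, H⁆ ≤ Z ≤ A`. So both
sections are `ZMod p`-modules (`AddCommGroup.zmodModule`), apply `bei`. -/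
theorem beiG {G : Type*} [Group G] [Finite G] {p : ℕ} [Fact p.Prime] (hG : IsPGroup p G)
    {D Z A H : Subgroup G} [D.Normal] [Z.Normal] [A.Normal] [H.Normal] (hDZ : D ≤ Z)
    (hZA : Z ≤ A) (hAH : A < H) (hH : ⁅H, H⁆ ≤ Z) (hA : ⁅A, H⁆ ≤ D)
    (onto : ∀ x ∈ H, x ∉ A → ∀ z ∈ Z, ∃ g ∈ H, ⁅x, g⁆ * z⁻¹ ∈ D) :
    D.relIndex Z ^ 2 ≤ A.relIndex H := by
  obtain ⟨V, _, _, f, fm, f0, fs, fc⟩ := Bei.sec (hH.trans hZA)
  obtain ⟨W, _, _, g, gm, g0, gs, gc⟩ := Bei.sec ((Subgroup.commutator_mono hZA (hZA.trans hAH.le)).trans hA)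
  rw [← fc, ← gc]
  have cm : ∀ {x y}, x ∈ H → y ∈ H → ⁅x, y⁆ ∈ Z := fun hx hy => hH (Subgroup.commutator_mem_commutator hx hy)
  have cA : ∀ {x y}, x ∈ A → y ∈ H → ⁅x, y⁆ ∈ D := fun hx hy => hA (Subgroup.commutator_mem_commutator hx hy)
  have cA' : ∀ {x y}, x ∈ H → y ∈ A → ⁅x, y⁆ ∈ D := fun {x y} hx hy => commutatorElement_inv y x ▸ inv_mem (cA hy hx)
  have cj : ∀ {x u}, x ∈ H → u ∈ Z → g (x * u * x⁻¹) = g u := fun {x u} hx hu => by
    have := cA' hx (hZA hu)
    rw [show x * u * x⁻¹ = ⁅x, u⁆ * u by simp [commutatorElement_def], gm _ (hDZ this) _ hu, (g0 _ (hDZ this)).2 this, zero_add]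
  have cl : ∀ {x y z}, x ∈ H → y ∈ H → z ∈ H → g ⁅x * y, z⁆ = g ⁅x, z⁆ + g ⁅y, z⁆ := fun {x y z} hx hy hz => by
    rw [show ⁅x * y, z⁆ = x * ⁅y, z⁆ * x⁻¹ * ⁅x, z⁆ by simp only [commutatorElement_def]; group,
      gm _ (Subgroup.Normal.conj_mem inferInstance _ (cm hy hz) x) _ (cm hx hz), cj hx (cm hy hz), add_comm]
  have cr : ∀ {x y z}, x ∈ H → y ∈ H → z ∈ H → g ⁅x, y * z⁆ = g ⁅x, y⁆ + g ⁅x, z⁆ := fun {x y z} hx hy hz => by
    rw [show ⁅x, y * z⁆ = ⁅x, y⁆ * (y * ⁅x, z⁆ * y⁻¹) by simp only [commutatorElement_def]; group,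
      gm _ (cm hx hy) _ (Subgroup.Normal.conj_mem inferInstance _ (cm hx hz) y), cj hy (cm hx hz)]
  have g1 : g 1 = 0 := (g0 1 (one_mem _)).2 (one_mem _)
  have pw : ∀ {x z} (k : ℕ), x ∈ H → z ∈ H → g ⁅x ^ k, z⁆ = k • g ⁅x, z⁆ := fun {x z} k hx hz => by
    induction k with
    | zero => simp [g1]
    | succ k ih => rw [pow_succ, cl (pow_mem hx k) hx hz, ih, succ_nsmul]
  have fp : ∀ {x} (k : ℕ), x ∈ H → f (x ^ k) = k • f x := fun {x} k hx => by
    induction k with
    | zero => simp [(f0 1 (one_mem _)).2 (one_mem _)]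
    | succ k ih => rw [pow_succ, fm _ (pow_mem hx k) _ hx, ih, succ_nsmul]
  have on : ∀ {x}, x ∈ H → x ∉ A → ∀ w, ∃ y ∈ H, g ⁅x, y⁆ = w := fun {x} hx xA w => by
    obtain ⟨z, hz, rfl⟩ := gs w
    obtain ⟨y, hy, k⟩ := onto x hx xA z hz
    exact ⟨y, hy, by rw [← inv_mul_cancel_right ⁅x, y⁆ z, gm _ (hDZ k) _ hz, (g0 _ (hDZ k)).2 k, zero_add]⟩
  have ex : ∀ (k : ℕ), ∀ x ∈ H, x ∉ A → x ^ p ^ k ∈ A → ∃ y ∈ H, y ∉ A ∧ y ^ p ∈ A := fun k => by
    induction k with
    | zero => exact fun x _ a c => (a (by simpa using c)).elim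
    | succ k ih =>
      intro x hx a c
      by_cases d : x ^ p ∈ A
      · exact ⟨x, hx, a, d⟩
      · exact ih _ (pow_mem hx p) d (by rwa [← pow_mul, ← pow_succ'])
  obtain ⟨x, hx, xA⟩ := SetLike.exists_of_lt hAH
  obtain ⟨y, hy, yA, yp⟩ := (hG x).elim fun k e => ex k x hx xA (e ▸ one_mem _)
  have pW : ∀ w : W, p • w = 0 := fun w => by
    obtain ⟨z, hz, rfl⟩ := on hy yA w
    rw [← pw p hy hz, (g0 _ (cm (pow_mem hy p) hz)).2 (cA yp hz)]
  rcases subsingleton_or_nontrivial W with _ | _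
  · rw [Nat.card_unique, one_pow]
    exact Nat.card_pos
  have pV : ∀ v : V, p • v = 0 := fun v => by
    obtain ⟨u, hu, rfl⟩ := fs v
    rw [← fp p hu, f0 _ (pow_mem hu p)]
    by_contra c
    obtain ⟨w, w0⟩ := exists_ne (0 : W)
    obtain ⟨z, hz, rfl⟩ := on (pow_mem hu p) c w
    exact w0 (by rw [pw p hu hz, pW])
  have : Nontrivial V := ⟨f x, 0, fun k => xA ((f0 x hx).1 k)⟩
  choose s sH sf using fs
  have df : ∀ {u}, u ∈ H → u⁻¹ * s (f u) ∈ A := fun {u} hu => (f0 _ (mul_mem (inv_mem hu) (sH _))).1 (by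
    have := fm u hu _ (mul_mem (inv_mem hu) (sH (f u)))
    rwa [mul_inv_cancel_left, sf, left_eq_add] at this)
  have wl : ∀ {u z}, u ∈ H → z ∈ H → g ⁅s (f u), z⁆ = g ⁅u, z⁆ := fun {u z} hu hz => by
    rw [← mul_inv_cancel_left u (s (f u)), cl hu (hAH.le (df hu)) hz, (g0 _ (hDZ (cA (df hu) hz))).2 (cA (df hu) hz), add_zero]
  have wr : ∀ {u z}, u ∈ H → z ∈ H → g ⁅z, s (f u)⁆ = g ⁅z, u⁆ := fun {u z} hu hz => by
    rw [← mul_inv_cancel_left u (s (f u)), cr hz hu (hAH.le (df hu)), (g0 _ (hDZ (cA' hz (df hu)))).2 (cA' hz (df hu)), add_zero]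
  have ad : ∀ v v', v + v' = f (s v * s v') := fun v v' => by rw [fm _ (sH v) _ (sH v'), sf, sf]
  refine Bei.add pV pW (fun v v' => g ⁅s v, s v'⁆) (fun a c v => ?_) (fun v a c => ?_) (fun v => ?_) fun v v0 w => ?_
  · rw [ad, wl (mul_mem (sH a) (sH c)) (sH v), cl (sH a) (sH c) (sH v)]
  · rw [ad, wr (mul_mem (sH a) (sH c)) (sH v), cr (sH v) (sH a) (sH c)]
  · rw [commutatorElement_self, g1]
  · obtain ⟨z, hz, e⟩ := on (sH v) (fun k => v0 (sf v ▸ (f0 _ (sH v)).2 k)) w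
    exact ⟨f z, (wr hz (sH v)).trans e⟩

end CL.N4
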