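import Cfsg.Agent.ORD.N4.LA4
import Cfsg.Agent.FGS.GrLie

/-! Camina `p`-groups have class at most three (Macdonald, Dark–Scoppola). -/

set_option autoImplicit false
set_option linter.unusedSectionVars false

namespace CL.N4

open CL.GrLie Module
open scoped commutatorElement

namespace Cam

variable {Q : Type*} [Group Q] [Finite Q] {p : ℕ} [hp : Fact p.Prime]

theorem bot_of_le [Group.IsNilpotent Q] {n : ℕ} (h1 : gam Q n ≤ gam Q (n + 1)) : gam Q n = ⊥ := by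
  have h2 : ∀ k, gam Q n ≤ gam Q (n + k) := by
    intro k
    induction k with
    | zero => exact le_rfl
    | succ k ih => exact h1.trans (Subgroup.commutator_mono ih le_rfl)
  rw [eq_bot_iff, ← Subgroup.lowerCentralSeries_nilpotencyClass]
  exact (h2 (Group.nilpotencyClass Q)).trans
    (Subgroup.lowerCentralSeries_antitone _ (Nat.le_add_left _ _))

theorem br0 {n : ℕ} {a : Q} (ha : a ∈ gam Q n) (b : Q) : br (io n a) (io 0 b) = io (n + 1) ⁅a, b⁆ :=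
  br_io (j := 0) ha (Subgroup.mem_top b)

theorem mem_of_br {n : ℕ} (K : AddSubgroup (GrL Q)) (h : ∀ a ∈ gam Q n, ∀ b, br (io n a) (io 0 b) ∈ K)
    {g : Q} (hg : g ∈ gam Q (n + 1)) : io (n + 1) g ∈ K := by
  have hg' := hg
  rw [Subgroup.mem_lowerCentralSeries_succ_iff] at hg'
  induction hg' using Subgroup.closure_induction with
  | mem x hx =>
    obtain ⟨a, ha, b, -, rfl⟩ := hx
    exact br0 ha b ▸ h a ha b
  | one => rw [io_one]; exact zero_mem _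
  | mul x y hx hy ihx ihy => rw [io_mul hx hy]; exact add_mem (ihx hx) (ihy hy)
  | inv x hx ihx => rw [io_inv hx]; exact neg_mem (ihx hx)

theorem kill (hQ : IsPGroup p Q) (h : ∀ x ∉ gam Q 1, ∀ y ∈ gam Q 1, ∃ g, ⁅x, g⁆ = y)
    (n1 : ¬ gam Q 1 ≤ gam Q 2) (x : GrL Q) : p • x = 0 := by
  have T : ∀ a : Q, a ∈ gam Q 0 := fun a => Subgroup.mem_top a
  obtain ⟨y, hy, ny⟩ := SetLike.not_le_iff_exists.1 n1
  have e : ∀ a g : Q, io 1 ⁅a ^ p, g⁆ = p • io 1 ⁅a, g⁆ := fun a g => by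
    rw [← br0 (T _), ← br0 (T _), io_pow (T a), map_nsmul, AddMonoidHom.nsmul_apply]
  have k1 : ∀ y ∈ gam Q 1, p • io 1 y = 0 := fun z hz => by
    by_contra n
    have : ∀ (k : ℕ) (a : Q), a ^ p ^ k = 1 → a ∈ gam Q 1 := fun k => by
      induction k with
      | zero => exact fun a ha => by rw [pow_zero, pow_one] at ha; exact ha ▸ one_mem _
      | succ k ih =>
        intro a ha
        by_contra na
        obtain ⟨g, rfl⟩ := h a na z hz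
        exact n (by rw [← e, io_eq_zero (comm_mem_succ (ih _ (by rw [← pow_mul, ← pow_succ', ha])) g)])
    refine n1 (Subgroup.commutator_mono (fun a _ => ?_) le_rfl)
    obtain ⟨k, hk⟩ := hQ a
    exact this k a hk
  have k0 : ∀ a : Q, p • io 0 a = 0 := fun a => by
    rw [← io_pow (T a), io_eq_zero_iff (T _)]
    by_contra n
    obtain ⟨g, rfl⟩ := h _ n y hy
    exact ny ((io_eq_zero_iff hy).1 (by rw [e, k1 _ (comm_mem_succ (T a) g)]))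
  induction x using induction_on with
  | h0 => simp
  | hadd x y hx hy => rw [nsmul_add, hx, hy, add_zero]
  | hio n g hg =>
    cases n with
    | zero => exact k0 g
    | succ n =>
      exact mem_of_br (nsmulAddMonoidHom (α := GrL Q) p).ker (fun a _ b =>
        show p • br (io n a) (io 0 b) = 0 by rw [← map_nsmul, k0, map_zero]) hg

variable [Module (ZMod p) (GrL Q)]

variable (p Q) in
/-- the homogeneous component -/
noncomputable def R (n : ℕ) : Submodule (ZMod p) (GrL Q) := AddSubgroup.toZModSubmodule p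
  { carrier := {x | ∃ g ∈ gam Q n, io n g = x}
    add_mem' := by
      rintro _ _ ⟨a, ha, rfl⟩ ⟨b, hb, rfl⟩
      exact ⟨_, mul_mem ha hb, io_mul ha hb⟩
    zero_mem' := ⟨1, one_mem _, io_one n⟩
    neg_mem' := by
      rintro _ ⟨a, ha, rfl⟩
      exact ⟨_, inv_mem ha, io_inv ha⟩ }

variable (p) in
/-- the class of an element -/
noncomputable def cl {n : ℕ} {g : Q} (hg : g ∈ gam Q n) : R Q p n := ⟨io n g, g, hg, rfl⟩

theorem cl_surj {n : ℕ} (x : R Q p n) : ∃ g, ∃ hg : g ∈ gam Q n, cl p hg = x := by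
  obtain ⟨_, g, hg, rfl⟩ := x
  exact ⟨g, hg, rfl⟩

theorem cl_zero {n : ℕ} {g : Q} (hg : g ∈ gam Q n) : cl p hg = 0 ↔ g ∈ gam Q (n + 1) :=
  Subtype.ext_iff.trans (io_eq_zero_iff hg)

instance (n : ℕ) : Finite (R Q p n) :=
  Finite.of_surjective (fun g : gam Q n => cl p g.2) fun x => by
    obtain ⟨g, hg, e⟩ := cl_surj x
    exact ⟨⟨g, hg⟩, e⟩

theorem ex_br (i j : ℕ) : ∃ b : R Q p i →ₗ[ZMod p] R Q p j →ₗ[ZMod p] R Q p (i + j + 1),
    ∀ u v, (b u v : GrL Q) = br u v := by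
  refine ⟨LinearMap.mk₂ (ZMod p) (fun u v => ⟨br u v, ?_⟩) (fun _ _ _ => Subtype.ext (by simp))
    (fun c u v => Subtype.ext (ZMod.map_smul (br.flip (v : GrL Q)) c (u : GrL Q))) (fun _ _ _ => Subtype.ext (by simp))
    (fun c u v => Subtype.ext (ZMod.map_smul (br (u : GrL Q)) c (v : GrL Q))), fun _ _ => rfl⟩
  obtain ⟨a, ha, rfl⟩ := cl_surj u
  obtain ⟨b, hb, rfl⟩ := cl_surj v
  exact ⟨_, comm_mem ha hb, (br_io ha hb).symm⟩

theorem span {n : ℕ} {t : R Q p n →ₗ[ZMod p] R Q p 0 →ₗ[ZMod p] R Q p (n + 1)}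
    (ht : ∀ u v, (t u v : GrL Q) = br u v) (μ : Dual (ZMod p) (R Q p (n + 1)))
    (h : ∀ u x, μ (t u x) = 0) : μ = 0 := by
  ext x
  obtain ⟨g, hg, rfl⟩ := cl_surj x
  obtain ⟨v, hv, e⟩ := mem_of_br ((LinearMap.ker μ).map (R Q p (n + 1)).subtype).toAddSubgroup
    (fun a ha b => ⟨_, h (cl p ha) (cl p (Subgroup.mem_top b)), ht _ _⟩) hg
  exact (Subtype.ext e : v = cl p hg) ▸ hv

/-- the preimage of a subspace -/
noncomputable def pre {n : ℕ} (K : Submodule (ZMod p) (R Q p n)) : Subgroup Q where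
  carrier := {g | ∃ hg : g ∈ gam Q n, cl p hg ∈ K}
  mul_mem' := by
    rintro a b ⟨ha, h1⟩ ⟨hb, h2⟩
    exact ⟨mul_mem ha hb, (Subtype.ext (io_mul ha hb) : cl p _ = cl p ha + cl p hb) ▸ add_mem h1 h2⟩
  one_mem' := ⟨one_mem _, (Subtype.ext (io_one n) : cl p (one_mem (gam Q n)) = 0) ▸ zero_mem _⟩
  inv_mem' := by
    rintro a ⟨ha, h1⟩
    exact ⟨inv_mem ha, (Subtype.ext (io_inv ha) : cl p _ = -cl p ha) ▸ neg_mem h1⟩

instance {n : ℕ} (K : Submodule (ZMod p) (R Q p n)) : (pre K).Normal :=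
  ⟨fun _ ⟨ha, h1⟩ x => ⟨conj_mem ha x, (Subtype.ext (io_conj ha x) : cl p _ = cl p ha) ▸ h1⟩⟩

theorem le_pre {n : ℕ} (K : Submodule (ZMod p) (R Q p n)) : gam Q (n + 1) ≤ pre K := fun _ hg =>
  ⟨gam_succ_le n hg, (cl_zero (p := p) (gam_succ_le n hg)).2 hg ▸ zero_mem _⟩

theorem pre_top (n : ℕ) : pre (⊤ : Submodule (ZMod p) (R Q p n)) = gam Q n :=
  le_antisymm (fun _ h => h.1) fun _ h => ⟨h, trivial⟩

theorem idx {n : ℕ} (K : Submodule (ZMod p) (R Q p n)) :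
    (gam Q (n + 1)).relIndex (pre K) = Nat.card K := by
  let φ : pre K →* Multiplicative K := MonoidHom.mk' (fun g => Multiplicative.ofAdd ⟨cl p g.2.1, g.2.2⟩)
    fun a b => Subtype.ext (Subtype.ext (io_mul a.2.1 b.2.1))
  have e : (gam Q (n + 1)).subgroupOf (pre K) = φ.ker :=
    Subgroup.ext fun g => ⟨fun k => Subtype.ext ((cl_zero (p := p) g.2.1).2 k),
      fun k => (cl_zero (p := p) g.2.1).1 (congrArg Subtype.val k)⟩
  have s : φ.range = ⊤ := MonoidHom.range_eq_top.2 fun ⟨x, hx⟩ => by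
    obtain ⟨g, hg, rfl⟩ := cl_surj x
    exact ⟨⟨g, hg, hx⟩, rfl⟩
  rw [Subgroup.relIndex, e, Subgroup.index_ker, s, Subgroup.card_top]
  rfl

variable {b : R Q p 0 →ₗ[ZMod p] R Q p 0 →ₗ[ZMod p] R Q p 1}
  {t : R Q p 1 →ₗ[ZMod p] R Q p 0 →ₗ[ZMod p] R Q p 2}
  (hb : ∀ u v, (b u v : GrL Q) = br u v) (ht : ∀ u v, (t u v : GrL Q) = br u v)
  (h : ∀ x ∉ gam Q 1, ∀ y ∈ gam Q 1, ∃ g, ⁅x, g⁆ = y)
include hb ht h

omit ht h in
theorem b_cl {x y : Q} (hx : x ∈ gam Q 0) (hy : y ∈ gam Q 0) :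
    b (cl p hx) (cl p hy) = cl p (comm_mem_succ hx y) := Subtype.ext ((hb _ _).trans (br0 hx y))

omit hb h in
theorem t_cl {x y : Q} (hx : x ∈ gam Q 1) (hy : y ∈ gam Q 0) :
    t (cl p hx) (cl p hy) = cl p (comm_mem_succ hx y) := Subtype.ext ((ht _ _).trans (br0 hx y))

theorem l3 (n2 : ¬ gam Q 2 ≤ gam Q 3) : L3 b t where
  alt x := Subtype.ext ((hb x x).trans (br_self _))
  onto x hx y := by
    obtain ⟨a, ha, rfl⟩ := cl_surj x
    obtain ⟨c, hc, rfl⟩ := cl_surj y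
    obtain ⟨g, rfl⟩ := h a (mt (cl_zero ha).2 hx) c hc
    exact ⟨cl p (Subgroup.mem_top g), b_cl hb _ _⟩
  jac x y z := Subtype.ext (by simpa [hb, ht] using br_jacobi (x : GrL Q) y z)
  span := span ht
  nt := by
    obtain ⟨g, hg, ng⟩ := SetLike.not_le_iff_exists.1 n2
    exact ⟨cl p hg, 0, mt (cl_zero hg).1 ng⟩

theorem h5 (hQ : IsPGroup p Q) (l : L3 b t) (y : R Q p 0) (y0 : y ≠ 0) :
    2 * finrank (ZMod p) (R Q p 2 ⧸ LinearMap.range (t.flip y)) ≤ finrank (ZMod p) (R Q p 1) := by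
  by_cases hr : LinearMap.range (t.flip y) = ⊤
  · have := Submodule.Quotient.subsingleton_iff.2 hr
    rw [finrank_zero_of_subsingleton]
    exact Nat.zero_le _
  obtain ⟨gd, hm⟩ := l.rng y0 hr
  have k := beiG hQ (D := pre (LinearMap.range (t.flip y))) (Z := gam Q 2) (A := gam Q 1)
    (H := pre (LinearMap.ker (b y))) (fun _ k => k.1) (gam_succ_le 1) ((le_pre _).lt_of_not_ge fun le => by
      obtain ⟨a, ha, rfl⟩ := cl_surj y
      exact y0 ((cl_zero ha).2 (le ⟨ha, l.alt _⟩)))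
    (Subgroup.commutator_le.2 fun a ⟨ha, h1⟩ c ⟨hc, h2⟩ => (cl_zero (comm_mem_succ ha c)).1 (by
      rw [← b_cl hb ha hc]
      by_cases a0 : cl p ha = 0
      · rw [a0, map_zero, LinearMap.zero_apply]
      · exact (gd.mem _ h1 a0 _).2 h2))
    (Subgroup.commutator_le.2 fun a ha c ⟨hc, h2⟩ => ⟨comm_mem_succ ha c, t_cl ht ha hc ▸ hm _ h2 _⟩)
    fun x ⟨hx, h1⟩ nx z hz => by
      obtain ⟨g, rfl⟩ := h x nx z (gam_succ_le 1 hz)
      exact ⟨g, ⟨Subgroup.mem_top g, (gd.mem _ h1 (mt (cl_zero hx).1 nx) _).1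
        ((b_cl hb _ _).trans ((cl_zero _).2 hz))⟩, by rw [mul_inv_cancel]; exact one_mem _⟩
  have e := Subgroup.relIndex_mul_relIndex _ _ _ (le_pre (LinearMap.range (t.flip y)))
    (show _ ≤ pre (⊤ : Submodule (ZMod p) (R Q p 2)) from fun _ k => ⟨k.1, trivial⟩)
  rw [idx, idx, pre_top, Nat.card_congr Submodule.topEquiv.toEquiv,
    Submodule.card_eq_card_quotient_mul_card (LinearMap.range (t.flip y))] at e
  rw [Nat.eq_of_mul_eq_mul_left Nat.card_pos e, idx,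
    natCard_eq_pow_finrank (K := ZMod p) (V := LinearMap.ker (b y)),
    natCard_eq_pow_finrank (K := ZMod p) (V := R Q p 2 ⧸ _), Nat.card_zmod, ← pow_mul, l.dim_ker y0,
    Nat.pow_le_pow_iff_right hp.out.one_lt] at k
  omega

theorem main (hQ : IsPGroup p Q) (h2 : gam Q 2 ≠ ⊥) :
    gam Q 3 = ⊥ ∧ ∀ u ∈ gam Q 1, u ∉ gam Q 2 → ∀ y ∈ gam Q 2, ∃ g, ⁅u, g⁆ = y := by
  have := hQ.isNilpotent
  obtain ⟨w, hw⟩ : ∃ b : R Q p 2 →ₗ[ZMod p] R Q p 0 →ₗ[ZMod p] R Q p 3,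
    ∀ u v, (b u v : GrL Q) = br u v := ex_br 2 0
  obtain ⟨v, hv⟩ : ∃ b : R Q p 1 →ₗ[ZMod p] R Q p 1 →ₗ[ZMod p] R Q p 3,
    ∀ u v, (b u v : GrL Q) = br u v := ex_br 1 1
  have l := l3 hb ht h fun le => h2 (bot_of_le le)
  have h3 : gam Q 3 = ⊥ := bot_of_le fun g hg => (cl_zero (p := p) hg).1
    ((forall_dual_apply_eq_zero_iff (ZMod p) (cl p hg : R Q p 3)).1 fun τ => by
      have := l.la4 (s := w.compr₂ τ) (β := v.compr₂ τ) (fun x y u => by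
        simp only [LinearMap.compr₂_apply, ← map_sub]
        refine congrArg τ (Subtype.ext ?_)
        have := br_jacobi (x : GrL Q) y u
        rw [br_swap (u : GrL Q) y, map_neg, AddMonoidHom.neg_apply] at this
        simp only [AddSubgroupClass.coe_sub, hb, ht, hw, hv]
        rw [← sub_eq_zero, ← this]
        abel) (h5 hb ht h hQ l)
      rw [span hw τ fun u x => LinearMap.congr_fun₂ this u x, LinearMap.zero_apply])
  refine ⟨h3, fun u hu nu y hy => ?_⟩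
  obtain ⟨x, hx⟩ := l.surj (mt (cl_zero hu).1 nu) (cl p hy)
  obtain ⟨g, hg, rfl⟩ := cl_surj x
  rw [t_cl ht] at hx
  have := (io_eq_zero_iff (mul_mem (comm_mem_succ hu g) (inv_mem hy))).1 (by
    rw [io_mul (comm_mem_succ hu g) (inv_mem hy), io_inv hy, add_neg_eq_zero]
    exact congrArg Subtype.val hx)
  rw [h3, Subgroup.mem_bot] at this
  exact ⟨g, mul_inv_eq_one.1 this⟩

end Cam

theorem cam {Q : Type*} [Group Q] [Finite Q] {p : ℕ} [Fact p.Prime] (hQ : IsPGroup p Q)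
    (h : ∀ x ∉ gam Q 1, ∀ y ∈ gam Q 1, ∃ g, ⁅x, g⁆ = y) :
    gam Q 3 = ⊥ ∧ ∀ u ∈ gam Q 1, u ∉ gam Q 2 → ∀ y ∈ gam Q 2, ∃ g, ⁅u, g⁆ = y := by
  have := hQ.isNilpotent
  by_cases h2 : gam Q 2 = ⊥
  · exact ⟨eq_bot_iff.2 (h2 ▸ gam_succ_le 2), fun u _ _ y hy =>
      ⟨1, by rw [h2, Subgroup.mem_bot] at hy; simp [hy]⟩⟩
  let _ : Module (ZMod p) (GrL Q) := AddCommGroup.zmodModule (Cam.kill hQ h fun le =>
    h2 (eq_bot_iff.2 (Cam.bot_of_le le ▸ gam_succ_le 1)))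
  obtain ⟨b, hb⟩ := Cam.ex_br (Q := Q) (p := p) 0 0
  obtain ⟨t, ht⟩ := Cam.ex_br (Q := Q) (p := p) 1 0
  exact Cam.main hb ht h hQ h2

theorem camS {G : Type*} [Group G] [Finite G] {p : ℕ} [Fact p.Prime] {Q : Subgroup G}
    (hQ : IsPGroup p Q) (h : ∀ x ∈ Q, x ∉ ⁅Q, Q⁆ → ∀ y ∈ ⁅Q, Q⁆, ∃ g ∈ Q, ⁅x, g⁆ = y) :
    ⁅⁅⁅Q, Q⁆, Q⁆, Q⁆ = ⊥ ∧ ⁅⁅Q, Q⁆, ⁅Q, Q⁆⁆ = ⊥ ∧
      ∀ u ∈ ⁅Q, Q⁆, u ∉ ⁅⁅Q, Q⁆, Q⁆ → ∀ y ∈ ⁅⁅Q, Q⁆, Q⁆, ∃ g ∈ Q, ⁅u, g⁆ = y := by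
  have e : ∀ n, (gam Q n).map Q.subtype = Q.lowerCentralSeries n := fun n => by
    rw [Subgroup.map_lowerCentralSeries, ← MonoidHom.range_eq_map, Q.range_subtype]
  have e1 : ⁅Q, Q⁆ = (gam Q 1).map Q.subtype := (e 1).symm
  have e2 : ⁅⁅Q, Q⁆, Q⁆ = (gam Q 2).map Q.subtype := (e 2).symm
  have e3 : ⁅⁅⁅Q, Q⁆, Q⁆, Q⁆ = (gam Q 3).map Q.subtype := (e 3).symm
  obtain ⟨h3, k⟩ := cam hQ fun x nx y hy => by
    obtain ⟨g, hg, e⟩ := h x x.2 (fun m => nx ((Subgroup.mem_map_iff_mem Q.subtype_injective).1 (e1 ▸ m)))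
      y (e1 ▸ ⟨y, hy, rfl⟩)
    exact ⟨⟨g, hg⟩, Subtype.ext e⟩
  refine ⟨by rw [e3, h3, Subgroup.map_bot], ?_, ?_⟩
  · rw [e1, ← Subgroup.map_commutator, eq_bot_iff.2 ((CL.HP.top_lcs_commutator_le 1 1).trans h3.le),
      Subgroup.map_bot]
  · rw [e2, e1]
    rintro _ ⟨u, hu, rfl⟩ nu _ ⟨y, hy, rfl⟩
    obtain ⟨g, rfl⟩ := k u hu (fun m => nu ⟨u, m, rfl⟩) y hy
    exact ⟨g, g.2, rfl⟩

end CL.N4
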