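import Cfsg.Agent.ORD.N4.LDefs
import Cfsg.Agent.ORD.N4.Bei

/-! Camina groups of class three (Macdonald), linear part. -/

set_option autoImplicit false
set_option linter.unusedSectionVars false

namespace CL.N4

open Module

variable {p : ℕ} [hp : Fact p.Prime] {V1 V2 V3 : Type*} [AddCommGroup V1] [Module (ZMod p) V1]
  [AddCommGroup V2] [Module (ZMod p) V2] [AddCommGroup V3] [Module (ZMod p) V3]
  [Finite V1] [Finite V2] [Finite V3]
  {b : V1 →ₗ[ZMod p] V1 →ₗ[ZMod p] V2} {t : V2 →ₗ[ZMod p] V1 →ₗ[ZMod p] V3}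
  {Y Y1 Y2 Y3 : Submodule (ZMod p) V1}

namespace LA3

theorem ex (h : L3 b t) : ∃ μ : Module.Dual (ZMod p) V3, μ ≠ 0 := by
  have := h.nt
  obtain ⟨v, hv⟩ := exists_ne (0 : V3)
  obtain ⟨μ, hμ⟩ := not_forall.1 (mt (Module.forall_dual_apply_eq_zero_iff (ZMod p) v).1 hv)
  exact ⟨μ, fun e => hμ (by rw [e]; rfl)⟩

theorem yy (h : L3 b t) {μ : Module.Dual (ZMod p) V3} {y y' : V1} (hy : ∀ u, μ (t u y) = 0)
    (hy' : ∀ u, μ (t u y') = 0) (z : V1) : μ (t (b y y') z) = 0 := by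
  simpa [hy, hy'] using congrArg μ (h.jac y y' z)

theorem rk {A B : Type*} [AddCommGroup A] [Module (ZMod p) A] [AddCommGroup B] [Module (ZMod p) B] [Finite A]
    [Finite B] (f : A →ₗ[ZMod p] B →ₗ[ZMod p] ZMod p) :
    finrank (ZMod p) (LinearMap.range f) ≤ finrank (ZMod p) (LinearMap.range f.flip) := by
  have h1 : LinearMap.range f ≤ (LinearMap.ker f.flip).dualAnnihilator := by
    rintro _ ⟨u, rfl⟩
    exact (Submodule.mem_dualAnnihilator _).2 fun w hw => DFunLike.congr_fun (LinearMap.mem_ker.1 hw) u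
  have h2 := Submodule.finrank_mono h1
  have h3 := Subspace.finrank_add_finrank_dualAnnihilator_eq (LinearMap.ker f.flip)
  have h4 := f.flip.finrank_range_add_finrank_ker
  exact h2.trans (Nat.add_left_cancel (h3.trans (h4.symm.trans (add_comm _ _)))).le

theorem key (h : L3 b t) {μ : Module.Dual (ZMod p) V3} (hμ : μ ≠ 0) :
    finrank (ZMod p) V1 = 2 * finrank (ZMod p) V2 ∧ LinearMap.ker (t.compr₂ μ) = ⊥ ∧
      finrank (ZMod p) (LinearMap.ker (t.compr₂ μ).flip) = finrank (ZMod p) V2 := by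
  set B := t.compr₂ μ
  have mY : ∀ y, y ∈ LinearMap.ker B.flip ↔ ∀ u, μ (t u y) = 0 := fun _ => LinearMap.ext_iff
  obtain ⟨x, hx⟩ : ∃ x, x ∉ LinearMap.ker B.flip := by
    by_contra! k
    exact hμ (h.span μ fun u x => (mY x).1 (k x) u)
  have : Nontrivial V1 := nontrivial_of_ne x 0 fun e => hx (e ▸ zero_mem _)
  have r1 := rk B
  have r2 : finrank (ZMod p) (LinearMap.range B.flip) ≤ finrank (ZMod p) (LinearMap.range B) := rk B.flip
  have d1 := B.finrank_range_add_finrank_ker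
  have d2 := B.flip.finrank_range_add_finrank_ker
  have le := LinearMap.finrank_le_finrank_of_injective
    (f := B.rangeRestrict ∘ₗ b.flip x ∘ₗ (LinearMap.ker B.flip).subtype)
    ((injective_iff_map_eq_zero _).2 fun y e => by
      by_contra y0
      have d3 := (B ∘ₗ b y).finrank_range_add_finrank_ker
      rw [LinearMap.range_comp_of_range_eq_top _ (LinearMap.range_eq_top.2 (h.onto y fun e => y0 (Subtype.ext e)))] at d3
      have : LinearMap.ker B.flip = LinearMap.ker (B ∘ₗ b y) := Submodule.eq_of_le_of_finrank_eq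
        (fun y' hy' => LinearMap.ext (yy h ((mY _).1 y.2) ((mY _).1 hy'))) (by omega)
      exact hx (this ▸ (congrArg Subtype.val e :)))
  have be := bei b h.alt h.onto
  exact ⟨by omega, Submodule.finrank_eq_zero.1 (by omega), by omega⟩

theorem eq_ker (hY : Gd b Y) {y : V1} (hy : y ∈ Y) (h0 : y ≠ 0) : LinearMap.ker (b y) = Y :=
  Submodule.ext (hY.mem y hy h0)

end LA3

open LA3

/-- PROOF (of `dim` and `nd` together). Let `μ ≠ 0`, `Z = {u | μ (t u ·) = 0}`,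
`Y = {y | μ (t · y) = 0}`; `μ ∘ t` is a perfect pairing `V2/Z × V1/Y`, of dimension `a ≥ 1`
(`span`). For `y, y' ∈ Y`, `jac` gives `b y y' ∈ Z`. For `0 ≠ y ∈ Y`, `b y` induces a
surjective, hence injective, map `V1/Y → V2/Z`. Fix `x0 ∉ Y`: `y ↦ μ (t (b y x0) ·)` is an
injective linear map from `Y` to the dual of `V1/Y`. So `finrank V1 ≤ 2 a ≤ 2 finrank V2`, and
`bei` gives equality and `Z = ⊥`. -/
theorem L3.dim (h : L3 b t) : finrank (ZMod p) V1 = 2 * finrank (ZMod p) V2 :=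
  let ⟨_, hμ⟩ := ex h; (key h hμ).1

theorem L3.nd (h : L3 b t) {μ : Module.Dual (ZMod p) V3} (hμ : μ ≠ 0) {u : V2} (hu : u ≠ 0) :
    ∃ x, μ (t u x) ≠ 0 :=
  not_forall.1 fun k => hu ((Submodule.eq_bot_iff _).1 (key h hμ).2.1 u (LinearMap.ext k))

theorem L3.surj (h : L3 b t) {u : V2} (hu : u ≠ 0) : Function.Surjective (t u) := by
  by_contra k
  obtain ⟨μ, hμ, le⟩ := (LinearMap.range (t u)).exists_le_ker_of_lt_top
    (lt_top_iff_ne_top.2 (mt LinearMap.range_eq_top.1 k))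
  obtain ⟨x, hx⟩ := h.nd hμ hu
  exact hx (le ⟨x, rfl⟩)

theorem L3.inj (h : L3 b t) {u : V2} (hu : ∀ x, t u x = 0) : u = 0 := by
  by_contra k
  obtain ⟨μ, hμ⟩ := ex h
  obtain ⟨x, hx⟩ := h.nd hμ k
  exact hx (by rw [hu, map_zero])

theorem L3.nt2 (h : L3 b t) : Nontrivial V2 := by
  by_contra! k
  obtain ⟨μ, hμ⟩ := ex h
  exact hμ (h.span μ fun u x => by simp [Subsingleton.elim u 0])

theorem L3.swap (h : L3 b t) (x y : V1) : b y x = -b x y := by
  have := h.alt (x + y)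
  simp only [map_add, LinearMap.add_apply, h.alt, zero_add, add_zero] at this
  exact eq_neg_of_add_eq_zero_left this

theorem L3.dim_ker (h : L3 b t) {y : V1} (hy : y ≠ 0) :
    finrank (ZMod p) (LinearMap.ker (b y)) = finrank (ZMod p) V2 := by
  have := (b y).finrank_range_add_finrank_ker
  rw [LinearMap.range_eq_top.2 (h.onto y hy), finrank_top, h.dim] at this
  omega

/-- PROOF. `Y = {y | μ (t · y) = 0}` has dimension `finrank V2` (`nd`, `dim`), `b Y Y = 0`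
(`jac`, `nd`), so `Y ≤ ker (b y)` with equal dimensions for `0 ≠ y ∈ Y`. -/
theorem L3.gd (h : L3 b t) {μ : Module.Dual (ZMod p) V3} (hμ : μ ≠ 0) :
    ∃ Y, Gd b Y ∧ ∀ y, y ∈ Y ↔ ∀ u, μ (t u y) = 0 := by
  obtain ⟨-, k2, k3⟩ := key h hμ
  have mY : ∀ y, y ∈ LinearMap.ker (t.compr₂ μ).flip ↔ ∀ u, μ (t u y) = 0 := fun _ => LinearMap.ext_iff
  have := h.nt2
  refine ⟨_, ⟨fun e => ?_, fun y hy y0 => SetLike.ext_iff.1 (Submodule.eq_of_le_of_finrank_eq
    (fun y' hy' => (Submodule.eq_bot_iff _).1 k2 _ (LinearMap.ext (yy h ((mY _).1 hy) ((mY _).1 hy'))))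
    (k3.trans (h.dim_ker y0).symm)).symm⟩, mY⟩
  rw [e, finrank_bot] at k3
  exact finrank_pos.ne k3

theorem L3.gd_dim (h : L3 b t) (hY : Gd b Y) : finrank (ZMod p) Y = finrank (ZMod p) V2 := by
  obtain ⟨y, hy, y0⟩ := (Submodule.ne_bot_iff _).1 hY.ne
  rw [← eq_ker hY hy y0, h.dim_ker y0]

theorem L3.isCompl (h : L3 b t) (h1 : Gd b Y1) (h2 : Gd b Y2) (ne : Y1 ≠ Y2) : IsCompl Y1 Y2 :=
  (Submodule.isCompl_iff_disjoint _ _ (by rw [h.gd_dim h1, h.gd_dim h2, h.dim, two_mul])).2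
    (Submodule.disjoint_def.2 fun y a c => by_contra fun y0 => ne ((eq_ker h1 a y0).symm.trans (eq_ker h2 c y0)))

/-- PROOF. Every `μ ≠ 0` vanishing on the range has `y` in its `Y` (`gd`), which is
`ker (b y)`; separate by duality. -/
theorem L3.rng (h : L3 b t) {y : V1} (hy : y ≠ 0) (hr : LinearMap.range (t.flip y) ≠ ⊤) :
    Gd b (LinearMap.ker (b y)) ∧
      ∀ y', b y y' = 0 → ∀ u, t u y' ∈ LinearMap.range (t.flip y) := by
  constructor
  · obtain ⟨μ, hμ, le⟩ := Submodule.exists_le_ker_of_lt_top _ (lt_top_iff_ne_top.2 hr)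
    obtain ⟨Y, hY, m⟩ := h.gd hμ
    exact eq_ker hY ((m y).2 fun u => le ⟨u, rfl⟩) hy ▸ hY
  · intro y' e u
    by_contra k
    obtain ⟨μ, hμ, le⟩ := Submodule.exists_le_ker_of_notMem k
    obtain ⟨Y, hY, m⟩ := h.gd (μ := μ) fun e => hμ (by rw [e]; rfl)
    exact hμ ((m y').1 ((hY.mem y ((m y).2 fun u => le ⟨u, rfl⟩) hy y').1 e) u)

end CL.N4
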