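import Cfsg.Agent.ORD.N4.LBig

/-! Camina groups have class at most three, linear part. -/

set_option autoImplicit false
set_option linter.unusedSectionVars false

namespace CL.N4

open Module

variable {p : ℕ} [hp : Fact p.Prime] {V1 V2 V3 : Type*} [AddCommGroup V1] [Module (ZMod p) V1]
  [AddCommGroup V2] [Module (ZMod p) V2] [AddCommGroup V3] [Module (ZMod p) V3]
  [Finite V1] [Finite V2] [Finite V3]
  {b : V1 →ₗ[ZMod p] V1 →ₗ[ZMod p] V2} {t : V2 →ₗ[ZMod p] V1 →ₗ[ZMod p] V3}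
  {Y Y1 Y2 Y3 : Submodule (ZMod p) V1}

/-- The functionals killing `t · Y`. -/
def MY (t : V2 →ₗ[ZMod p] V1 →ₗ[ZMod p] V3) (Y : Submodule (ZMod p) V1) :
    Submodule (ZMod p) (Module.Dual (ZMod p) V3) where
  carrier := {μ | ∀ y ∈ Y, ∀ u, μ (t u y) = 0}
  add_mem' := fun {μ ν} h1 h2 y hy u => by
    rw [LinearMap.add_apply, h1 y hy u, h2 y hy u, add_zero]
  zero_mem' := fun _ _ _ => rfl
  smul_mem' := fun c μ h1 y hy u => by rw [LinearMap.smul_apply, h1 y hy u, smul_zero]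

namespace LA4

theorem cardp (U : Type*) [AddCommGroup U] [Module (ZMod p) U] [Finite U] :
    Nat.card U = p ^ finrank (ZMod p) U := by
  rw [Module.natCard_eq_pow_finrank (K := ZMod p), Nat.card_zmod]

theorem my_le (h5 : ∀ y ≠ 0, 2 * finrank (ZMod p) (V3 ⧸ LinearMap.range (t.flip y)) ≤
      finrank (ZMod p) V2) (hY : Gd b Y) : Nat.card (MY t Y) ≤ Nat.sqrt (Nat.card V2) := by
  have : Finite (Module.Dual (ZMod p) V3) := Finite.of_injective _ DFunLike.coe_injective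
  obtain ⟨y, hy, y0⟩ := Submodule.exists_mem_ne_zero_of_ne_bot hY.ne
  have le : MY t Y ≤ (LinearMap.range (t.flip y)).dualAnnihilator := fun μ hμ => by
    rw [Submodule.mem_dualAnnihilator]
    rintro _ ⟨u, rfl⟩
    exact hμ y hy u
  have h1 := Submodule.finrank_mono le
  have h2 := Subspace.finrank_add_finrank_dualAnnihilator_eq (LinearMap.range (t.flip y))
  have h3 := Submodule.finrank_quotient_add_finrank (LinearMap.range (t.flip y))
  have h4 := h5 y y0
  rw [Nat.le_sqrt', cardp (p := p), cardp (p := p) V2, ← pow_mul]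
  exact Nat.pow_le_pow_right hp.out.pos (by omega)

theorem ker_le (h : L3 b t) {s : V3 →ₗ[ZMod p] V1 →ₗ[ZMod p] ZMod p}
    {β : V2 →ₗ[ZMod p] V2 →ₗ[ZMod p] ZMod p}
    (j4 : ∀ x y u, β (b x y) u = s (t u y) x - s (t u x) y) {x0 : V1} (hx0 : s.flip x0 ≠ 0) :
    finrank (ZMod p) (LinearMap.ker s.flip) ≤ finrank (ZMod p) V2 := by
  have hk : ∀ x ∈ LinearMap.ker s.flip, ∀ v, s v x = 0 := fun x hx v =>
    LinearMap.congr_fun (LinearMap.mem_ker.1 hx) v
  by_cases hβ : ∀ v u, β v u = 0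
  · obtain ⟨Y, hY, hm⟩ := h.gd hx0
    rw [← h.gd_dim hY]
    refine Submodule.finrank_mono fun x hx => (hm x).2 fun u => ?_
    have := j4 x x0 u
    rw [hβ, hk x hx, zero_sub] at this
    exact neg_eq_zero.1 this.symm
  · push Not at hβ
    obtain ⟨v, u, ne⟩ := hβ
    let φ : V1 →ₗ[ZMod p] Module.Dual (ZMod p) V1 := b.compr₂ (β.flip u)
    have inj : Function.Injective φ := by
      rw [injective_iff_map_eq_zero]
      intro x hx
      by_contra x0
      obtain ⟨y, rfl⟩ := h.onto x x0 v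
      exact ne (LinearMap.congr_fun hx y)
    have le : (LinearMap.ker s.flip).map φ ≤ (LinearMap.ker s.flip).dualAnnihilator := by
      rintro _ ⟨x, hx, rfl⟩
      rw [Submodule.mem_dualAnnihilator]
      intro y hy
      show β (b x y) u = 0
      rw [j4, hk x hx, hk y hy, sub_zero]
    have h1 := Submodule.finrank_mono le
    have h2 := Subspace.finrank_add_finrank_dualAnnihilator_eq (LinearMap.ker s.flip)
    rw [← (Submodule.equivMapOfInjective φ inj _).finrank_eq] at h1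
    have := h.dim
    omega

theorem cover (h : L3 b t) (M : Submodule (ZMod p) (Module.Dual (ZMod p) V3)) {e : ℕ}
    (he : ∀ Y, Gd b Y → Nat.card (MY t Y) ≤ e) :
    Nat.card M - 1 ≤ Nat.card {Y : Submodule (ZMod p) V1 // Gd b Y} * (e - 1) := by
  classical
  have : Finite (Module.Dual (ZMod p) V3) := Finite.of_injective _ DFunLike.coe_injective
  have : Finite (Submodule (ZMod p) V1) := Finite.of_injective _ SetLike.coe_injective
  have := Fintype.ofFinite (Module.Dual (ZMod p) V3)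
  have := Fintype.ofFinite {Y : Submodule (ZMod p) V1 // Gd b Y}
  have cd : ∀ N : Submodule (ZMod p) (Module.Dual (ZMod p) V3),
      ((Finset.univ.filter (· ∈ N)).erase 0).card = Nat.card N - 1 := fun N => by
    rw [Finset.card_erase_of_mem (by simp), Nat.card_eq_fintype_card, Fintype.card_subtype]
  rw [← cd M, Nat.card_eq_fintype_card, ← Finset.card_univ]
  refine le_trans (Finset.card_le_card ?_) (Finset.card_biUnion_le_card_mul Finset.univ
    (fun Y : {Y : Submodule (ZMod p) V1 // Gd b Y} => (Finset.univ.filter (· ∈ MY t Y.1)).erase 0)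
    _ fun Y _ => ?_)
  · intro μ hμ
    have μ0 := (Finset.mem_erase.1 hμ).1
    obtain ⟨Y, hY, hm⟩ := h.gd μ0
    exact Finset.mem_biUnion.2 ⟨⟨Y, hY⟩, Finset.mem_univ _, Finset.mem_erase.2 ⟨μ0,
      Finset.mem_filter.2 ⟨Finset.mem_univ _, fun y hy => (hm y).1 hy⟩⟩⟩
  · rw [cd]
    exact Nat.sub_le_sub_right (he _ Y.2) 1

theorem ad_le (h : L3 b t) (hT : Tri b Y1 Y2 Y3) {s : V3 →ₗ[ZMod p] V1 →ₗ[ZMod p] ZMod p}
    {β : V2 →ₗ[ZMod p] V2 →ₗ[ZMod p] ZMod p}
    (j4 : ∀ x y u, β (b x y) u = s (t u y) x - s (t u x) y) {x0 : V1} (hx0 : s.flip x0 ≠ 0)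
    (hY : Gd b Y) (hm : ∀ y, y ∈ Y ↔ ∀ u, s.flip x0 (t u y) = 0) :
    Nat.card (Ad b Y1 Y2 Y3) ≤ Nat.card (MY t Y) := by
  have : Finite (Module.Dual (ZMod p) V3) := Finite.of_injective _ DFunLike.coe_injective
  have bal : ∀ g ∈ Ad b Y1 Y2 Y3, ∀ u y, s (t u (g y)) x0 = s (t u y) (g x0) := fun g hg u y => by
    by_cases g0 : g = 0
    · simp [g0]
    · obtain ⟨o, ho, e⟩ := h.ad_ord hT hg g0
      exact h.bal4 j4 hg.2.2.2 ho e u y x0
  refine Nat.card_le_card_of_injective (fun g => (⟨s.flip (g.1 x0), fun y hy u => ?_⟩ : MY t Y)) ?_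
  · exact (bal g g.2 u y).symm.trans ((hm _).1 (h.ad_map hT g.2 hY hy) u)
  · intro g k e
    have e' : s.flip (g.1 x0) = s.flip (k.1 x0) := congrArg Subtype.val e
    by_contra ne
    have m : g.1 - k.1 ∈ Ad b Y1 Y2 Y3 := sub_mem g.2 k.2
    have bij := h.ad_bij hT m fun z => ne (Subtype.ext (sub_eq_zero.1 z))
    refine hx0 (h.span _ fun u y => ?_)
    obtain ⟨y, rfl⟩ := bij.2 y
    refine (bal _ m u y).trans ?_
    rw [LinearMap.sub_apply, map_sub, sub_eq_zero]
    exact LinearMap.congr_fun e' _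

end LA4

/-- PROOF. Suppose `s ≠ 0`. `μ x = s.flip x`, `W = ker s.flip`, `M = range s.flip ≠ ⊥`,
`q = |V2|`, `|V1| = q²` (`dim`). (i) `|M| ≥ q`: else `finrank W > finrank V2`; `j4` gives
`β (b W W) = 0`; if `β ≠ 0` some `ν = β.flip u ≠ 0` has `W` isotropic for the
non-degenerate `ν ∘ b` (`W` embeds in the dual of `V1/W`), impossible; if `β = 0` then `j4`
gives `W ≤ Y` for the `Y` of `μ y`, `y ∉ W` (`gd`, `gd_dim`), impossible. (ii) For good `Y`
let `MY = {μ | μ (t · Y) = 0}`; `|MY|² ≤ q` (`h5` for `0 ≠ y ∈ Y`: `MY` kills the range), so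
`|MY| ≤ e = Nat.sqrt q`. `M \ 0` is covered by the `MY \ 0` (`gd`), so
`q - 1 ≤ c (e - 1)`, `c` = number of good `Y`; `e ≥ 2`, `e² ≤ q`, so `c ≥ e + 1 ≥ 3`: a
`Tri`, `A = Ad`, `c ≤ |A| + 1` (`count`). (iii) For `μ x ≠ 0` with its `Y`, `g ↦ μ (g x)` is
an injective map `A → MY` (`bal4`, `ad_ord`, `ad_map`, `ad_bij`, `span`), so `|A| ≤ e`.
Hence `|A| = e`, `q = e²`, against `big`. -/
theorem L3.la4 (h : L3 b t) {s : V3 →ₗ[ZMod p] V1 →ₗ[ZMod p] ZMod p}
    {β : V2 →ₗ[ZMod p] V2 →ₗ[ZMod p] ZMod p}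
    (j4 : ∀ x y u, β (b x y) u = s (t u y) x - s (t u x) y)
    (h5 : ∀ y ≠ 0, 2 * finrank (ZMod p) (V3 ⧸ LinearMap.range (t.flip y)) ≤
      finrank (ZMod p) V2) : s = 0 := by
  by_contra hs
  obtain ⟨x0, hx0⟩ : ∃ x, s.flip x ≠ 0 := by
    by_contra hc
    push Not at hc
    exact hs (LinearMap.ext fun v => LinearMap.ext fun x => LinearMap.congr_fun (hc x) v)
  have : Finite (Module.Dual (ZMod p) V3) := Finite.of_injective _ DFunLike.coe_injective
  have : Finite (Submodule (ZMod p) V1) := Finite.of_injective _ SetLike.coe_injective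
  have hM : Nat.card V2 ≤ Nat.card (LinearMap.range s.flip) := by
    rw [LA4.cardp (p := p), LA4.cardp (p := p) (LinearMap.range s.flip)]
    have h1 := LA4.ker_le h j4 hx0
    have h2 := LinearMap.finrank_range_add_finrank_ker s.flip
    have h3 := h.dim
    exact Nat.pow_le_pow_right hp.out.pos (by omega)
  have he := fun Y (hY : Gd b Y) => LA4.my_le h5 hY
  have hc := (Nat.sub_le_sub_right hM 1).trans (LA4.cover h (LinearMap.range s.flip) he)
  obtain ⟨Y, hY, hm⟩ := h.gd hx0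
  have e2 : 2 ≤ Nat.sqrt (Nat.card V2) := by
    refine le_trans ?_ (he Y hY)
    have : Nontrivial (MY t Y) :=
      ⟨⟨⟨s.flip x0, fun y hy => (hm y).1 hy⟩, 0, fun e => hx0 (congrArg Subtype.val e)⟩⟩
    exact Finite.one_lt_card
  have sq := Nat.sqrt_le' (Nat.card V2)
  obtain ⟨e, ee⟩ : ∃ e, Nat.sqrt (Nat.card V2) = e + 1 := ⟨_, (Nat.sub_add_cancel (by omega)).symm⟩
  rw [ee] at he hc e2 sq
  rw [Nat.add_sub_cancel] at hc
  generalize hcc : Nat.card {Y : Submodule (ZMod p) V1 // Gd b Y} = c at hc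
  have c3 : e + 2 ≤ c := by
    have : (e + 2) * e ≤ c * e := by
      have : (e + 1) ^ 2 = (e + 2) * e + 1 := by ring
      omega
    exact Nat.le_of_mul_le_mul_right this (by omega)
  obtain ⟨Y1, Y2, Y3, n12, n13, n23⟩ :
      ∃ a b' c : {Y : Submodule (ZMod p) V1 // Gd b Y}, a ≠ b' ∧ a ≠ c ∧ b' ≠ c := by
    have := Fintype.ofFinite {Y : Submodule (ZMod p) V1 // Gd b Y}
    rw [← Fintype.two_lt_card_iff, ← Nat.card_eq_fintype_card]
    omega
  have hT : Tri b Y1.1 Y2.1 Y3.1 := ⟨Y1.2, Y2.2, Y3.2, fun z => n12 (Subtype.ext z),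
    fun z => n13 (Subtype.ext z), fun z => n23 (Subtype.ext z)⟩
  have a1 := h.count hT
  have a2 := (LA4.ad_le h hT j4 hx0 hY hm).trans (he Y hY)
  refine h.big hT ?_
  have a3 : Nat.card (Ad b Y1.1 Y2.1 Y3.1) = e + 1 := by omega
  have a4 : c = e + 2 := by omega
  rw [a3]
  have : (e + 1) ^ 2 = (e + 2) * e + 1 := by ring
  rw [a4] at hc
  omega

end CL.N4
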