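import Cfsg.Agent.ORD.N4.LA3

/-! Self-adjoint semisimple endomorphisms are balanced for the higher brackets. -/

set_option autoImplicit false
set_option linter.unusedSectionVars false

namespace CL.N4

open Module

variable {p : ℕ} [hp : Fact p.Prime] {V1 V2 V3 : Type*} [AddCommGroup V1] [Module (ZMod p) V1]
  [AddCommGroup V2] [Module (ZMod p) V2] [AddCommGroup V3] [Module (ZMod p) V3]
  [Finite V1] [Finite V2] [Finite V3]
  {b : V1 →ₗ[ZMod p] V1 →ₗ[ZMod p] V2} {t : V2 →ₗ[ZMod p] V1 →ₗ[ZMod p] V3}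
  {Y Y1 Y2 Y3 : Submodule (ZMod p) V1}

/-- PROOF. With `δ x z = T (g x) z - T x (g z)` the hypothesis says `δ (g x) z = δ x (g z)`;
induction: `T (g ^ (n+1) x) z = T x (g ^ (n+1) z) + (n+1) • δ x (g ^ n z)`; put `n + 1 = o`. -/
theorem ss {Z : Type*} [AddCommGroup Z] [Module (ZMod p) Z] (T : V1 →ₗ[ZMod p] V1 →ₗ[ZMod p] Z)
    {g : Module.End (ZMod p) V1} {o : ℕ} (ho : ¬ p ∣ o) (hg : g ^ o = 1)
    (h : ∀ x z, T (g (g x)) z + T x (g (g z)) = T (g x) (g z) + T (g x) (g z)) (x z : V1) :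
    T (g x) z = T x (g z) := by
  have δ : ∀ x z, T (g (g x)) z - T (g x) (g z) = T (g x) (g z) - T x (g (g z)) := fun x z => by
    linear_combination (norm := abel) h x z
  have k : ∀ (n : ℕ) (x z : V1), T ((g ^ (n + 1)) x) z =
      T x ((g ^ (n + 1)) z) + ((n + 1 : ℕ) : ZMod p) • (T (g x) ((g ^ n) z) - T x (g ((g ^ n) z))) := fun n => by
    induction n with
    | zero => intro x z; simp
    | succ n ih =>
      intro x z
      have e : ∀ (m : ℕ) (w : V1), (g ^ (m + 1)) w = g ((g ^ m) w) := fun m w => by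
        rw [pow_succ', Module.End.mul_apply]
      rw [e (n + 1) z, pow_succ g (n + 1), Module.End.mul_apply, ih, δ, e n, Nat.cast_succ (n + 1), add_smul, one_smul]
      abel
  obtain ⟨n, rfl⟩ : ∃ n, o = n + 1 := Nat.exists_eq_succ_of_ne_zero fun e => ho (e ▸ dvd_zero p)
  have e := k n x (g z)
  have e1 : (g ^ n) (g z) = z := by rw [← Module.End.mul_apply, ← pow_succ, hg, Module.End.one_apply]
  rw [hg, Module.End.one_apply, Module.End.one_apply, e1, left_eq_add, smul_eq_zero] at e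
  exact sub_eq_zero.1 (e.resolve_left fun c => ho ((ZMod.natCast_eq_zero_iff _ _).1 c))

/-- PROOF. `jac x (g y) (g z) - jac (g x) (g y) z - jac x y (g (g z)) + jac (g x) y (g z)` and
`ad` give the hypothesis of `ss` for `T x z = t (b x y) z`. -/
theorem L3.bal (h : L3 b t) {g : Module.End (ZMod p) V1} (ad : ∀ x y, b (g x) y = b x (g y))
    {o : ℕ} (ho : ¬ p ∣ o) (hg : g ^ o = 1) (x y z : V1) :
    t (b (g x) y) z = t (b x y) (g z) := by
  refine ss (t ∘ₗ b.flip y) ho hg (fun x z => ?_) x z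
  have a1 := h.jac x (g y) (g z)
  have a2 := h.jac (g x) (g y) z
  have a3 := h.jac x y (g (g z))
  have a4 := h.jac (g x) y (g z)
  simp only [LinearMap.comp_apply, LinearMap.flip_apply, ad] at a1 a2 a3 a4 ⊢
  linear_combination (norm := abel) a2 + a3 - a1 - a4

/-- PROOF. Write `u = b a c`, `u' = b (g a) c`, so `t u' z = t u (g z)` (`bal`). Then
`j4 x (g y) u' - j4 (g x) y u' - j4 (g x) (g y) u + j4 (g (g x)) y u` gives the hypothesis of
`ss` for `T y x = s (t u y) x`. -/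
theorem L3.bal4 (h : L3 b t) {s : V3 →ₗ[ZMod p] V1 →ₗ[ZMod p] ZMod p}
    {β : V2 →ₗ[ZMod p] V2 →ₗ[ZMod p] ZMod p}
    (j4 : ∀ x y u, β (b x y) u = s (t u y) x - s (t u x) y)
    {g : Module.End (ZMod p) V1} (ad : ∀ x y, b (g x) y = b x (g y))
    {o : ℕ} (ho : ¬ p ∣ o) (hg : g ^ o = 1) (u : V2) (y x : V1) :
    s (t u (g y)) x = s (t u y) (g x) := by
  by_cases y0 : ∃ a : V1, a ≠ 0
  swap
  · have : ∀ a : V1, a = 0 := by simpa using y0
    rw [this y]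
    simp
  obtain ⟨a, ha⟩ := y0
  obtain ⟨c, rfl⟩ := h.onto a ha u
  refine ss (s ∘ₗ t (b a c)) ho hg (fun y x => ?_) y x
  have b1 := j4 x (g y) (b (g a) c)
  have b2 := j4 (g x) y (b (g a) c)
  have b3 := j4 (g x) (g y) (b a c)
  have b4 := j4 (g (g x)) y (b a c)
  simp only [h.bal ad ho hg a c] at b1 b2
  rw [ad x y] at b2
  rw [ad (g x) y] at b4
  simp only [LinearMap.comp_apply]
  linear_combination b2 + b3 - b1 - b4

theorem Ad.one_mem : (1 : Module.End (ZMod p) V1) ∈ Ad b Y1 Y2 Y3 := by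
  exact ⟨fun _ h => h, fun _ h => h, fun _ h => h, fun _ _ => rfl⟩

theorem Ad.pow_mem {g : Module.End (ZMod p) V1} (hg : g ∈ Ad b Y1 Y2 Y3) (n : ℕ) :
    g ^ n ∈ Ad b Y1 Y2 Y3 := by
  induction n with
  | zero => exact Ad.one_mem
  | succ n ih =>
    refine ⟨fun y hy => ?_, fun y hy => ?_, fun y hy => ?_, fun x y => ?_⟩
    · rw [pow_succ]; exact ih.1 _ (hg.1 y hy)
    · rw [pow_succ]; exact ih.2.1 _ (hg.2.1 y hy)
    · rw [pow_succ]; exact ih.2.2.1 _ (hg.2.2.1 y hy)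
    · nth_rewrite 1 [pow_succ']
      rw [pow_succ, Module.End.mul_apply, Module.End.mul_apply, hg.2.2.2, ih.2.2.2]

/-- PROOF. If `g y = 0`, `y = y1 + y2 ≠ 0`, then `g y1 = g y2 = 0`; say `y1 ≠ 0`: then
`b (g x) y1 = 0`, the image of `g` lies in `Y1`, so `g` kills `Y2` and `Y3`, which span. -/
theorem L3.ad_bij (h : L3 b t) (hT : Tri b Y1 Y2 Y3) {g : Module.End (ZMod p) V1}
    (hg : g ∈ Ad b Y1 Y2 Y3) (h0 : g ≠ 0) : Function.Bijective g := by
  have key : ∀ {A B C : Submodule (ZMod p) V1}, Gd b A → Gd b B → Gd b C → A ≠ B → A ≠ C → B ≠ C →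
      (∀ y ∈ B, g y ∈ B) → (∀ y ∈ C, g y ∈ C) → ∀ y ∈ A, g y = 0 → y = 0 := by
    intro A B C gA gB gC ab ac bc hB hC y hy e
    by_contra y0
    have im : ∀ x, g x ∈ A := fun x => (gA.mem y hy y0 _).1 (by rw [h.swap, hg.2.2.2, e, map_zero, neg_zero])
    refine h0 (LinearMap.ext fun x => ?_)
    obtain ⟨u, hu, w, hw, rfl⟩ := Submodule.mem_sup.1
      ((h.isCompl gB gC bc).sup_eq_top ▸ Submodule.mem_top : x ∈ B ⊔ C)
    rw [map_add, Submodule.disjoint_def.1 (h.isCompl gA gB ab).disjoint _ (im u) (hB u hu),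
      Submodule.disjoint_def.1 (h.isCompl gA gC ac).disjoint _ (im w) (hC w hw), add_zero, LinearMap.zero_apply]
  refine Finite.injective_iff_bijective.1 ((injective_iff_map_eq_zero g).2 fun y e => ?_)
  have c := h.isCompl hT.g1 hT.g2 hT.n12
  obtain ⟨u, hu, w, hw, rfl⟩ := Submodule.mem_sup.1 (c.sup_eq_top ▸ Submodule.mem_top : y ∈ Y1 ⊔ Y2)
  rw [map_add] at e
  have e1 : g u = 0 := Submodule.disjoint_def.1 c.disjoint _ (hg.1 u hu)
    (by rw [eq_neg_of_add_eq_zero_left e]; exact neg_mem (hg.2.1 w hw))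
  rw [e1, zero_add] at e
  rw [key hT.g1 hT.g2 hT.g3 hT.n12 hT.n13 hT.n23 hg.2.1 hg.2.2.1 u hu e1,
    key hT.g2 hT.g1 hT.g3 hT.n12.symm hT.n23 hT.n13 hg.1 hg.2.2.1 w hw e, add_zero]

/-- PROOF. `g` is a unit of the finite ring; if `g ^ (k * p) = 1` then `(g ^ k - 1) ^ p = 0`,
so `g ^ k - 1 ∈ Ad` is not bijective, so `g ^ k = 1`; take `o` minimal. -/
theorem L3.ad_ord (h : L3 b t) (hT : Tri b Y1 Y2 Y3) {g : Module.End (ZMod p) V1}
    (hg : g ∈ Ad b Y1 Y2 Y3) (h0 : g ≠ 0) : ∃ o : ℕ, ¬ p ∣ o ∧ g ^ o = 1 := by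
  obtain ⟨u, rfl⟩ := (Module.End.isUnit_iff g).2 (h.ad_bij hT hg h0)
  have : Nontrivial (Module.End (ZMod p) V1) := ⟨_, _, h0⟩
  have : CharP (Module.End (ZMod p) V1) p := charP_of_injective_algebraMap (algebraMap (ZMod p) _).injective p
  have : Finite (Module.End (ZMod p) V1) := Finite.of_injective _ DFunLike.coe_injective
  have e : (u : Module.End (ZMod p) V1) ^ orderOf u = 1 := by
    rw [← Units.val_pow_eq_pow_val, pow_orderOf_eq_one, Units.val_one]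
  refine ⟨orderOf u, fun ⟨k, hk⟩ => ?_, e⟩
  have op := orderOf_pos u
  have e1 : ((u : Module.End (ZMod p) V1) ^ k - 1) ^ p = 0 := by
    rw [sub_pow_char_of_commute _ (Commute.one_right _), one_pow, ← pow_mul, mul_comm, ← hk, e, sub_self]
  have e2 : (u : Module.End (ZMod p) V1) ^ k - 1 = 0 := by
    by_contra c
    have := ((Module.End.isUnit_iff _).2 (h.ad_bij hT (sub_mem (Ad.pow_mem hg k) Ad.one_mem) c)).pow p
    rw [e1] at this
    exact not_isUnit_zero this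
  have e3 : u ^ k = 1 := Units.ext (by rw [Units.val_pow_eq_pow_val]; exact sub_eq_zero.1 e2)
  have k0 : 0 < k := Nat.pos_of_ne_zero fun c => by rw [c, mul_zero] at hk; omega
  have := Nat.le_of_dvd k0 (orderOf_dvd_of_pow_eq_one e3)
  have := hp.out.two_le
  nlinarith

theorem L3.ad_bal (h : L3 b t) (hT : Tri b Y1 Y2 Y3) {g : Module.End (ZMod p) V1}
    (hg : g ∈ Ad b Y1 Y2 Y3) (x y z : V1) : t (b (g x) y) z = t (b x y) (g z) := by
  by_cases h0 : g = 0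
  · simp [h0]
  · obtain ⟨o, ho, e⟩ := h.ad_ord hT hg h0
    exact h.bal hg.2.2.2 ho e x y z

/-- PROOF. `t (b (g (k x)) y) z = t (b x (k y)) (g z) = t (b (k (g x)) y) z`; `inj`, `onto`. -/
theorem L3.ad_comm (h : L3 b t) (hT : Tri b Y1 Y2 Y3) {g k : Module.End (ZMod p) V1}
    (hg : g ∈ Ad b Y1 Y2 Y3) (hk : k ∈ Ad b Y1 Y2 Y3) : g * k = k * g := by
  ext x
  by_contra c
  have e : ∀ y, b (g (k x) - k (g x)) y = 0 := fun y => h.inj fun z => by
    rw [map_sub, LinearMap.sub_apply, map_sub, LinearMap.sub_apply, h.ad_bal hT hg, hk.2.2.2, hk.2.2.2,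
      h.ad_bal hT hg, sub_self]
  have := h.nt2
  obtain ⟨u, hu⟩ := exists_ne (0 : V2)
  obtain ⟨y, rfl⟩ := h.onto _ (sub_ne_zero.2 c) u
  exact hu (e y)

theorem L3.ad_mul (h : L3 b t) (hT : Tri b Y1 Y2 Y3) {g k : Module.End (ZMod p) V1}
    (hg : g ∈ Ad b Y1 Y2 Y3) (hk : k ∈ Ad b Y1 Y2 Y3) : g * k ∈ Ad b Y1 Y2 Y3 := by
  refine ⟨fun y hy => hg.1 _ (hk.1 y hy), fun y hy => hg.2.1 _ (hk.2.1 y hy),
    fun y hy => hg.2.2.1 _ (hk.2.2.1 y hy), fun x y => ?_⟩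
  nth_rewrite 2 [h.ad_comm hT hg hk]
  rw [Module.End.mul_apply, Module.End.mul_apply, hg.2.2.2, hk.2.2.2]

/-- PROOF. For `y, y' ∈ Y`, `y' ≠ 0`: `t (b (g y) y') z = t (b y y') (g z) = 0`. -/
theorem L3.ad_map (h : L3 b t) (hT : Tri b Y1 Y2 Y3) {g : Module.End (ZMod p) V1}
    (hg : g ∈ Ad b Y1 Y2 Y3) (hY : Gd b Y) {y : V1} (hy : y ∈ Y) : g y ∈ Y := by
  obtain ⟨w, hw, w0⟩ := Submodule.exists_mem_ne_zero_of_ne_bot hY.ne
  have e : b y w = 0 := by rw [h.swap, (hY.mem w hw w0 y).2 hy, neg_zero]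
  have e1 : b (g y) w = 0 := h.inj fun z => by rw [h.ad_bal hT hg, e]; simp
  exact (hY.mem w hw w0 _).1 (by rw [h.swap, e1, neg_zero])

end CL.N4
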