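import Cfsg.Agent.ORD.N4.LA3

/-! Good subspaces are graphs of self-adjoint endomorphisms. -/

set_option autoImplicit false
set_option linter.unusedSectionVars false

namespace CL.N4

open Module

variable {p : ℕ} [hp : Fact p.Prime] {V1 V2 V3 : Type*} [AddCommGroup V1] [Module (ZMod p) V1]
  [AddCommGroup V2] [Module (ZMod p) V2] [AddCommGroup V3] [Module (ZMod p) V3]
  [Finite V1] [Finite V2] [Finite V3]
  {b : V1 →ₗ[ZMod p] V1 →ₗ[ZMod p] V2} {t : V2 →ₗ[ZMod p] V1 →ₗ[ZMod p] V3}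
  {Y Y1 Y2 Y3 : Submodule (ZMod p) V1}

namespace LCnt

theorem zero (hY : Gd b Y) {x y : V1} (hx : x ∈ Y) (hy : y ∈ Y) : b x y = 0 := by
  by_cases x0 : x = 0
  · rw [x0, map_zero, LinearMap.zero_apply]
  · exact (hY.mem x hx x0 y).2 hy

theorem dec (hc : IsCompl Y1 Y2) (x : V1) : ∃ (a : Y1) (c : Y2), x = a + c := by
  obtain ⟨a, c, e, -⟩ := Submodule.existsUnique_add_of_isCompl hc x
  exact ⟨a, c, e.symm⟩

end LCnt

/-- The graph map. PROOF. `Y` and `Y2` are complements (`isCompl`); `φ a = -` the projection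
of `a` on `Y2` along `Y`. If also `Y ≠ Y1` it is injective, so bijective (`gd_dim`). -/
theorem L3.graph (h : L3 b t) (h1 : Gd b Y1) (h2 : Gd b Y2) (hY : Gd b Y) (n12 : Y1 ≠ Y2)
    (n : Y ≠ Y2) : ∃ φ : Y1 →ₗ[ZMod p] Y2, (∀ (a : Y1) (c : Y2), (a : V1) + c ∈ Y ↔ c = φ a) ∧
      (Y ≠ Y1 → Function.Bijective φ) := by
  have hc : IsCompl Y2 Y := h.isCompl h2 hY n.symm
  have key : ∀ (a : Y1) (c : Y2), (a : V1) + c ∈ Y ↔
      c = (-(Y2.projectionOnto Y hc) ∘ₗ Y1.subtype) a := by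
    intro a c
    rw [← Submodule.projectionOnto_apply_eq_zero_iff hc, map_add, Submodule.projectionOnto_apply_left,
      add_comm, add_eq_zero_iff_eq_neg]
    rfl
  refine ⟨_, key, fun n1 => ?_⟩
  have inj : Function.Injective (-(Y2.projectionOnto Y hc) ∘ₗ Y1.subtype) := by
    rw [injective_iff_map_eq_zero]
    intro a ha
    have h3 : (a : V1) + (0 : Y2) ∈ Y := (key a 0).2 ha.symm
    rw [Submodule.coe_zero, add_zero] at h3
    exact Subtype.ext ((Submodule.disjoint_def.1 (h.isCompl hY h1 n1).disjoint) a h3 a.2)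
  exact ⟨inj, (LinearMap.injective_iff_surjective_of_finrank_eq_finrank
    ((h.gd_dim h1).trans (h.gd_dim h2).symm)).1 inj⟩

/-- An endomorphism `k` of `Y1`, self-adjoint for `a ∘ c = b a (φ c)`, extends to `Ad`.
PROOF. Act by `k` on `Y1` and by `φ k φ⁻¹` on `Y2`; `b` vanishes on `Yi × Yi`, `swap`;
`Y3 = {a + φ a}`. -/
theorem L3.ext (h : L3 b t) (hT : Tri b Y1 Y2 Y3) (φ : Y1 ≃ₗ[ZMod p] Y2)
    (hφ : ∀ (a : Y1) (c : Y2), (a : V1) + c ∈ Y3 ↔ c = φ a) (k : Y1 →ₗ[ZMod p] Y1)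
    (hk : ∀ a c : Y1, b (k a) (φ c) = b a (φ (k c))) :
    ∃ g ∈ Ad b Y1 Y2 Y3, ∀ a : Y1, g a = k a := by
  have hc := h.isCompl hT.g1 hT.g2 hT.n12
  let g : V1 →ₗ[ZMod p] V1 := LinearMap.ofIsCompl hc (Y1.subtype ∘ₗ k)
    (Y2.subtype ∘ₗ φ.toLinearMap ∘ₗ k ∘ₗ φ.symm.toLinearMap)
  have g1 : ∀ a : Y1, g a = k a := fun a => LinearMap.ofIsCompl_apply_left hc a
  have g2 : ∀ a : Y1, g (φ a) = φ (k a) := fun a => by
    rw [show g (φ a) = _ from LinearMap.ofIsCompl_apply_right hc (φ a)]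
    simp
  have dec : ∀ x : V1, ∃ a c : Y1, x = a + φ c := fun x => by
    obtain ⟨a, c, e⟩ := LCnt.dec hc x
    exact ⟨a, φ.symm c, by rw [φ.apply_symm_apply]; exact e⟩
  refine ⟨g, ⟨fun y hy => ?_, fun y hy => ?_, fun y hy => ?_, fun x y => ?_⟩, g1⟩
  · rw [show g y = _ from g1 ⟨y, hy⟩]; exact (k _).2
  · obtain ⟨a, ha⟩ := φ.surjective ⟨y, hy⟩
    have : y = φ a := by rw [ha]
    rw [this, g2]; exact (φ _).2
  · obtain ⟨a, c, rfl⟩ := dec y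
    rw [(hφ a _).1 hy, map_add, g1, g2]
    exact (hφ _ _).2 rfl
  · obtain ⟨a, c, rfl⟩ := dec x
    obtain ⟨a', c', rfl⟩ := dec y
    simp only [map_add, g1, g2, LinearMap.add_apply]
    rw [LCnt.zero hT.g1 (k a).2 a'.2, LCnt.zero hT.g1 a.2 (k a').2,
      LCnt.zero hT.g2 (φ (k c)).2 (φ c').2, LCnt.zero hT.g2 (φ c).2 (φ (k c')).2, hk a c',
      h.swap (a' : V1) (φ (k c)), h.swap (k a' : V1) (φ c), hk a' c]

/-- PROOF. `b (a + φ a) (c + φ c) = 0`. -/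
theorem L3.sym (h : L3 b t) (h1 : Gd b Y1) (h2 : Gd b Y2) (hY : Gd b Y) (φ : Y1 →ₗ[ZMod p] Y2)
    (hφ : ∀ a : Y1, (a : V1) + φ a ∈ Y) (a c : Y1) : b a (φ c) = b c (φ a) := by
  have h0 := LCnt.zero hY (hφ a) (hφ c)
  simp only [map_add, LinearMap.add_apply] at h0
  rw [LCnt.zero h1 a.2 c.2, LCnt.zero h2 (φ a).2 (φ c).2, h.swap (c : V1) (φ a)] at h0
  rw [← sub_eq_zero, ← h0]; abel

/-- PROOF. `φ` = graph map of `Y3`; for good `Y ≠ Y2` with graph map `ψ`, `k = φ⁻¹ ψ` is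
self-adjoint (`sym` for `φ` and for `ψ`); `Y ↦ g` (`ext`) is injective as `Y` is the graph
of `ψ = φ k`. -/
theorem L3.count (h : L3 b t) (hT : Tri b Y1 Y2 Y3) :
    Nat.card {Y : Submodule (ZMod p) V1 // Gd b Y} ≤ Nat.card (Ad b Y1 Y2 Y3) + 1 := by
  obtain ⟨φ0, hφ0, hb⟩ := h.graph hT.g1 hT.g2 hT.g3 hT.n12 hT.n23.symm
  let φ := LinearEquiv.ofBijective φ0 (hb hT.n13.symm)
  have hφ : ∀ (a : Y1) (c : Y2), (a : V1) + c ∈ Y3 ↔ c = φ a := hφ0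
  have sφ : ∀ a c : Y1, b a (φ c) = b c (φ a) :=
    h.sym hT.g1 hT.g2 hT.g3 φ0 fun a => (hφ0 a _).2 rfl
  have ex : ∀ Y : {Y : Submodule (ZMod p) V1 // Gd b Y}, ∃ o : Option (Ad b Y1 Y2 Y3),
      (o = none → Y.1 = Y2) ∧ ∀ g, o = some g → ∃ k : Y1 →ₗ[ZMod p] Y1, (∀ a : Y1, g.1 a = k a) ∧
        ∀ (a : Y1) (c : Y2), (a : V1) + c ∈ Y.1 ↔ c = φ (k a) := by
    rintro ⟨Y, hY⟩
    by_cases n : Y = Y2
    · exact ⟨none, fun _ => n, fun g e => by cases e⟩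
    obtain ⟨ψ, hψ, -⟩ := h.graph hT.g1 hT.g2 hY hT.n12 n
    have sψ := h.sym hT.g1 hT.g2 hY ψ fun a => (hψ a _).2 rfl
    let k : Y1 →ₗ[ZMod p] Y1 := φ.symm.toLinearMap ∘ₗ ψ
    have hk : ∀ a, φ (k a) = ψ a := fun a => φ.apply_symm_apply _
    obtain ⟨g, hg, gk⟩ := h.ext hT φ hφ k fun a c => by rw [sφ, hk, hk, sψ]
    refine ⟨some ⟨g, hg⟩, fun e => (by cases e), fun g' e => ⟨k, ?_, fun a c => ?_⟩⟩
    · cases e; exact gk
    · rw [hk]; exact hψ a c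
  choose f f1 f2 using ex
  have : Finite (Module.End (ZMod p) V1) := Finite.of_injective _ DFunLike.coe_injective
  rw [← Finite.card_option]
  refine Nat.card_le_card_of_injective f fun Y Y' e => Subtype.ext ?_
  cases o : f Y' with
  | none => rw [f1 Y (e.trans o), f1 Y' o]
  | some g =>
    obtain ⟨k, k1, k2⟩ := f2 Y g (e.trans o)
    obtain ⟨k', k1', k2'⟩ := f2 Y' g o
    ext x
    obtain ⟨a, c, rfl⟩ := LCnt.dec (h.isCompl hT.g1 hT.g2 hT.n12) x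
    have : k a = k' a := Subtype.ext ((k1 a).symm.trans (k1' a))
    rw [k2, k2', this]

end CL.N4
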