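import Cfsg.Agent.ORD.N4.LBal
import Cfsg.Agent.ORD.N4.LCnt

/-! A commutative semifield two-dimensional over its centre is a field. -/

set_option autoImplicit false
set_option linter.unusedSectionVars false

namespace CL.N4

open Module

variable {p : ℕ} [hp : Fact p.Prime] {V1 V2 V3 : Type*} [AddCommGroup V1] [Module (ZMod p) V1]
  [AddCommGroup V2] [Module (ZMod p) V2] [AddCommGroup V3] [Module (ZMod p) V3]
  [Finite V1] [Finite V2] [Finite V3]
  {b : V1 →ₗ[ZMod p] V1 →ₗ[ZMod p] V2} {t : V2 →ₗ[ZMod p] V1 →ₗ[ZMod p] V3}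
  {Y Y1 Y2 Y3 : Submodule (ZMod p) V1}

/-- PROOF. `A = Ad`, `φ` = graph map of `Y3`, `a ∘ c = b a (φ c)` is symmetric (`sym`) and
`a ↦ a ∘ c` is bijective `Y1 → V2` for `c ≠ 0`; elements of `A` commute with `φ`. Take
`0 ≠ e ∈ Y1`, `e' ∈ Y1` not in `A e` (`|A| < |A|² = |Y1|`). `(g, k) ↦ g e + k e'` is injective
on `A × A` (inverses are powers, `ad_ord`, `ad_mul`), so onto `Y1`. Define `k` by
`(k a) ∘ e = a ∘ e'`; `k e = e'`. `B a c = (k a) ∘ c - a ∘ (k c)` is antisymmetric with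
`B a a = 0`, `B a e = 0`; `k` commutes with `A` and `t (B (g a) c) z = t (B a c) (g z)`
(`ad_bal`, `inj`), so `B = 0` on `A e + A e'`. By `ext`, `e' ∈ A e`. -/
theorem L3.big (h : L3 b t) (hT : Tri b Y1 Y2 Y3) :
    Nat.card (Ad b Y1 Y2 Y3) ^ 2 ≠ Nat.card V2 := by
  intro hc
  obtain ⟨φ0, hφ, hb⟩ := h.graph hT.g1 hT.g2 hT.g3 hT.n12 hT.n23.symm
  let φ : Y1 ≃ₗ[ZMod p] Y2 := LinearEquiv.ofBijective φ0 (hb hT.n13.symm)
  have sym : ∀ a c : Y1, b a (φ c) = b c (φ a) :=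
    h.sym hT.g1 hT.g2 hT.g3 φ0 fun a => (hφ a _).2 rfl
  have dis := (h.isCompl hT.g1 hT.g2 hT.n12).disjoint
  have d1 := h.gd_dim hT.g1
  let L : Y1 → (Y1 →ₗ[ZMod p] V2) := fun c => (b.flip (φ c)).comp Y1.subtype
  have Linj : ∀ c : Y1, c ≠ 0 → Function.Injective (L c) := fun c c0 => by
    rw [injective_iff_map_eq_zero]
    intro a ha
    have h1 : b (φ c) a = 0 := by
      rw [h.swap]; exact neg_eq_zero.2 ha
    have h2 : ((φ c : Y2) : V1) ≠ 0 := fun e => c0 (φ.map_eq_zero_iff.1 (Subtype.ext e))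
    exact Subtype.ext (Submodule.disjoint_def.1 dis a a.2 ((hT.g2.mem _ (φ c).2 h2 a).1 h1))
  have c1 : Nat.card Y1 = Nat.card V2 := by
    rw [Module.natCard_eq_pow_finrank (K := ZMod p), Module.natCard_eq_pow_finrank (K := ZMod p) (V := V2), d1]
  obtain ⟨e0, he0, e0ne⟩ := (Submodule.ne_bot_iff _).1 hT.g1.ne
  let e : Y1 := ⟨e0, he0⟩
  have en : e ≠ 0 := fun k => e0ne (congrArg Subtype.val k)
  have : Finite (Module.End (ZMod p) V1) := Finite.of_injective _ DFunLike.coe_injective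
  let r : Ad b Y1 Y2 Y3 → Y1 → Y1 := fun g a => ⟨g.1 a, g.2.1 a a.2⟩
  obtain ⟨e', he'⟩ : ∃ e' : Y1, ∀ g, r g e ≠ e' := by
    by_contra k
    push Not at k
    have le := Nat.card_le_card_of_surjective (fun g => r g e) k
    have : 1 < Nat.card Y1 := Finite.one_lt_card_iff_nontrivial.2 ⟨e, 0, en⟩
    rw [c1, ← hc] at le this
    nlinarith
  have inj : Function.Injective fun x : Ad b Y1 Y2 Y3 × Ad b Y1 Y2 Y3 => r x.1 e + r x.2 e' := by
    rintro ⟨g, k⟩ ⟨g', k'⟩ hx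
    have h0 : (g - g').1 e + (k - k').1 e' = 0 := by
      have : g.1 e + k.1 e' = g'.1 e + k'.1 e' := congrArg Subtype.val hx
      simp only [Submodule.coe_sub, LinearMap.sub_apply]
      rw [sub_add_sub_comm, this, sub_self]
    by_cases kk : (k - k').1 = 0
    · rw [kk, LinearMap.zero_apply, add_zero] at h0
      have gg : (g - g').1 = 0 := by
        by_contra g0
        exact e0ne ((h.ad_bij hT (g - g').2 g0).1 (h0.trans (map_zero _).symm))
      exact Prod.ext (sub_eq_zero.1 (Subtype.ext gg)) (sub_eq_zero.1 (Subtype.ext kk))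
    · exfalso
      obtain ⟨o, ho, ko⟩ := h.ad_ord hT (k - k').2 kk
      obtain ⟨m, rfl⟩ : ∃ m, o = m + 1 := Nat.exists_eq_succ_of_ne_zero fun z => ho (z ▸ dvd_zero p)
      refine he' (-⟨(k - k').1 ^ m * (g - g').1, h.ad_mul hT (Ad.pow_mem (k - k').2 m) (g - g').2⟩) (Subtype.ext ?_)
      change -(((k - k').1 ^ m) ((g - g').1 e)) = e'
      rw [eq_neg_of_add_eq_zero_left h0, map_neg, neg_neg, ← Module.End.mul_apply, ← pow_succ, ko, Module.End.one_apply]
  have sur := (Function.Injective.bijective_of_nat_card_le inj (by rw [Nat.card_prod, c1, ← hc, sq])).2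
  let Le : Y1 ≃ₗ[ZMod p] V2 := LinearEquiv.ofBijective (L e)
    (Function.Injective.bijective_of_nat_card_le (Linj e en) c1.ge)
  let k : Y1 →ₗ[ZMod p] Y1 := Le.symm.toLinearMap.comp (L e')
  have hk : ∀ a, b (k a) (φ e) = b a (φ e') := fun a => Le.apply_symm_apply (L e' a)
  have ke : k e = e' := Linj e en ((hk e).trans (sym e e'))
  have kg : ∀ g a, k (r g a) = r g (k a) := fun g a => Linj e en (by
    change b (k (r g a)) (φ e) = b (g.1 (k a)) (φ e)
    rw [hk, ← sub_eq_zero]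
    refine h.inj fun z => ?_
    change t (b (g.1 a) (φ e') - _) z = 0
    rw [map_sub, LinearMap.sub_apply, h.ad_bal hT g.2, h.ad_bal hT g.2, hk, sub_self])
  let B : Y1 → Y1 → Prop := fun a c => b (k a) (φ c) = b a (φ (k c))
  have Bs : ∀ {a c}, B a c → B c a := fun {a c} q => by
    change b (k c) (φ a) = b c (φ (k a))
    rw [sym, sym c]; exact q.symm
  have Bg : ∀ g {a c}, B a c → B (r g a) c := fun g a c q => by
    change b (k (r g a)) (φ c) = b (g.1 a) (φ (k c))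
    rw [kg, ← sub_eq_zero]
    refine h.inj fun z => ?_
    change t (b (g.1 (k a)) (φ c) - _) z = 0
    rw [map_sub, LinearMap.sub_apply, h.ad_bal hT g.2, h.ad_bal hT g.2, q, sub_self]
  have Ba : ∀ {a a' c}, B a c → B a' c → B (a + a') c := fun {a a' c} q q' => by
    change b (k (a + a')) (φ c) = b (a + a' : Y1) (φ (k c))
    rw [map_add, Submodule.coe_add, Submodule.coe_add, map_add, map_add, LinearMap.add_apply, LinearMap.add_apply, q, q']
  have Bl : ∀ {c}, B e c → B e' c → ∀ a, B a c := fun {c} q q' a => by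
    obtain ⟨⟨g, g'⟩, rfl⟩ := sur a
    exact Ba (Bg g q) (Bg g' q')
  have B1 : ∀ a, B a e := fun a => by
    change b (k a) (φ e) = b a (φ (k e))
    rw [ke, hk]
  have B2 : ∀ a, B a e' := Bl (Bs (B1 e')) (sym _ _)
  obtain ⟨g, hg, gk⟩ := h.ext hT φ hφ k fun a c => Bl (Bs (B1 c)) (Bs (B2 c)) a
  exact he' ⟨g, hg⟩ (Subtype.ext ((gk e).trans (congrArg Subtype.val ke)))

end CL.N4
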