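import Mathlib

/-! Camina `p`-groups of class at least three: the linear data on the first three factors of the
lower central series. -/

set_option autoImplicit false

namespace CL.N4

open Module

variable {p : ℕ} [Fact p.Prime] {V1 V2 V3 : Type*} [AddCommGroup V1] [Module (ZMod p) V1]
  [AddCommGroup V2] [Module (ZMod p) V2] [AddCommGroup V3] [Module (ZMod p) V3]

/-- `b : V1 × V1 → V2` and `t : V2 × V1 → V3` are the brackets of a Camina group. -/
structure L3 (b : V1 →ₗ[ZMod p] V1 →ₗ[ZMod p] V2) (t : V2 →ₗ[ZMod p] V1 →ₗ[ZMod p] V3) : Prop where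
  alt : ∀ x, b x x = 0
  onto : ∀ x ≠ 0, Function.Surjective (b x)
  jac : ∀ x y z, t (b x y) z + t (b y z) x + t (b z x) y = 0
  span : ∀ μ : Module.Dual (ZMod p) V3, (∀ u x, μ (t u x) = 0) → μ = 0
  nt : Nontrivial V3

/-- A non-zero subspace that is the `b`-centraliser of each of its non-zero vectors. -/
structure Gd (b : V1 →ₗ[ZMod p] V1 →ₗ[ZMod p] V2) (Y : Submodule (ZMod p) V1) : Prop where
  ne : Y ≠ ⊥
  mem : ∀ y ∈ Y, y ≠ 0 → ∀ x, b y x = 0 ↔ x ∈ Y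

/-- The self-adjoint endomorphisms leaving three subspaces invariant. -/
def Ad (b : V1 →ₗ[ZMod p] V1 →ₗ[ZMod p] V2) (Y1 Y2 Y3 : Submodule (ZMod p) V1) :
    Submodule (ZMod p) (Module.End (ZMod p) V1) where
  carrier := {g | (∀ y ∈ Y1, g y ∈ Y1) ∧ (∀ y ∈ Y2, g y ∈ Y2) ∧ (∀ y ∈ Y3, g y ∈ Y3) ∧
    ∀ x y, b (g x) y = b x (g y)}
  add_mem' := fun {g h} hg hh => ⟨fun y hy => add_mem (hg.1 y hy) (hh.1 y hy),
    fun y hy => add_mem (hg.2.1 y hy) (hh.2.1 y hy),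
    fun y hy => add_mem (hg.2.2.1 y hy) (hh.2.2.1 y hy), fun x y => by
      simp only [LinearMap.add_apply, map_add, hg.2.2.2 x y, hh.2.2.2 x y]⟩
  zero_mem' := ⟨fun _ _ => zero_mem _, fun _ _ => zero_mem _, fun _ _ => zero_mem _,
    fun x y => by simp⟩
  smul_mem' := fun c g hg => ⟨fun y hy => Y1.smul_mem c (hg.1 y hy),
    fun y hy => Y2.smul_mem c (hg.2.1 y hy), fun y hy => Y3.smul_mem c (hg.2.2.1 y hy),
    fun x y => by simp only [LinearMap.smul_apply, map_smul, hg.2.2.2 x y]⟩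

/-- Three distinct good subspaces. -/
structure Tri (b : V1 →ₗ[ZMod p] V1 →ₗ[ZMod p] V2) (Y1 Y2 Y3 : Submodule (ZMod p) V1) : Prop where
  g1 : Gd b Y1
  g2 : Gd b Y2
  g3 : Gd b Y3
  n12 : Y1 ≠ Y2
  n13 : Y1 ≠ Y3
  n23 : Y2 ≠ Y3

end CL.N4
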