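import Cfsg.Agent.ORD.N4.Lin3

/-! A metabelian linear group without regular orbit and with incomparable orbit lengths. -/

set_option autoImplicit false

namespace CL.N4

open Subgroup MulAction

variable {X W : Type*} [Group X] [Finite X] [CommGroup W] [Finite W] [MulDistribMulAction X W]

theorem Lin.pr {K : Subgroup X} (hK : (Nat.card K).Prime) {z : X} (hz : z ∈ K) (z1 : z ≠ 1) : zpowers z = K :=
  eq_of_le_of_card_ge (zpowers_le.2 hz) (((Nat.dvd_prime hK).1 (card_dvd_of_le (zpowers_le.2 hz))).resolve_left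
    (mt card_eq_one.1 (zpowers_ne_bot.2 z1))).ge

/-- PROOF. `F = commutator X ≤ N`, `H = centralizer {g0} = U ⊔ zpowers g0` abelian, `H ⊓ N = U`.
For `g ∉ N`, `x ↦ ⁅x, g⁆` maps `N` onto `F` with kernel `U` and `F` bijectively onto `F`
(`fix`, `inf`), `F ≠ ⊥`, `X = F H`; so every `g ∉ N` is `F`-conjugate into `H`, and
`centralizer {g} = H` for `g ∈ H \ N`. Stabilisers of `w ≠ 1` meet `N` trivially (`semi`), so are
cyclic, non-trivial (`stab`) and conjugate into `H`; `q ∤ |U|`, so `q`-subgroups of `H` are cyclic.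
For `R ≤ H` with `R ⊓ U = ⊥`: `|C_W(R)| ^ |R| = |W|` (`card_fix`). (i) Stabilisers have prime
order: if `R = stabilizer w ≤ H` has a proper subgroup `R'` of prime order, `reg_orbit` for `H` on
`C_W(R')` (get `w' ≠ 1`: otherwise all of `H`, in particular `R`, fixes `C_W(R')`) gives `w'`
whose stabiliser is the kernel of `H` on `C_W(R')`, which is `R'` by the formula; this
contradicts `anti`. (ii) `ndvd` gives `r = |R| ∤ |N|`. Any `R* ≤ H` of prime order `∤ |U|`, or of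
order `r²`, with `R* ≠ R` gives `R R*` meeting `U` trivially, with a fixed `w ≠ 1` and a
stabiliser of composite order. So every stabiliser is an `F`-conjugate of `R = zpowers ρ` and
`r² ∤ N.index`. (iii) If `N.index ≠ r` take a prime `r' ≠ r` dividing it and `g ∈ H` of order `r'`
modulo `N`; `lin3`. -/
theorem lin [Nontrivial W] {q : ℕ} [Fact q.Prime] (hW : ∀ w : W, w ^ q = 1) {N U : Subgroup X}
    [N.Normal] (hc : ∀ a ∈ N, ∀ b ∈ N, a * b = b * a) {g0 : X} (cyc : N ⊔ zpowers g0 = ⊤)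
    (UN : U ≤ N) (Uc : U ≤ center X) (ne : ¬ N ≤ U)
    (fix : ∀ g ∉ N, ∀ x ∈ N, g * x = x * g → x ∈ U) (inf : _root_.commutator X ⊓ U = ⊥)
    (semi : ∀ x ∈ N, ∀ w : W, w ≠ 1 → x • w = w → x = 1)
    (stab : ∀ w : W, w ≠ 1 → ∃ g ∉ N, g • w = w)
    (anti : ∀ w w' : W, w ≠ 1 → w' ≠ 1 → (stabilizer X w).index ∣ (stabilizer X w').index →
      (stabilizer X w).index = (stabilizer X w').index)
    (ndvd : ∀ w : W, w ≠ 1 → ¬ N.index ∣ (stabilizer X w).index) : N.index.Prime := by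
  obtain ⟨π, hπ⟩ : ∃ π, π = QuotientGroup.mk' N := ⟨_, rfl⟩
  have kπ : ∀ x, π x = 1 ↔ x ∈ N := fun x => hπ ▸ QuotientGroup.eq_one_iff x
  have gen : ∀ x, π x ∈ zpowers (π g0) := fun x => by
    obtain ⟨a, ha, _, ⟨i, rfl⟩, rfl⟩ := mem_sup_of_normal_left.1 (cyc.ge (mem_top x))
    exact ⟨i, by rw [map_mul, (kπ a).2 ha, one_mul, map_zpow]⟩
  have gen' : ∀ y, y ∈ zpowers (π g0) := fun y => by
    obtain ⟨x, rfl⟩ := (hπ ▸ QuotientGroup.mk'_surjective N : Function.Surjective π) y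
    exact gen x
  have cy : IsCyclic (X ⧸ N) := ⟨⟨π g0, gen'⟩⟩
  have og : orderOf (π g0) = N.index := orderOf_eq_card_of_forall_mem_zpowers gen'
  have FN : _root_.commutator X ≤ N := commutator_le.2 fun a _ b _ => (kπ _).1 (by
    rw [map_commutatorElement, commutatorElement_eq_one_iff_commute]
    obtain ⟨i, hi⟩ := gen a
    obtain ⟨j, hj⟩ := gen b
    rw [← hi, ← hj]
    exact Commute.zpow_zpow_self _ _ _)
  have mF : ∀ a b : X, a * b * a⁻¹ * b⁻¹ ∈ _root_.commutator X := fun a b =>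
    commutator_mem_commutator (mem_top a) (mem_top b)
  have f1 : ∀ g ∉ N, ∀ x ∈ _root_.commutator X, g * x = x * g → x = 1 := fun g hg x hx c =>
    mem_bot.1 (inf.le ⟨hx, fix g hg x (FN hx) c⟩)
  have ab : ∀ g ∉ N, ∀ a b, Commute g a → Commute g b → Commute a b := fun g hg a b ha hb =>
    commutatorElement_eq_one_iff_commute.1 (f1 g hg _ (mF a b)
      (((ha.mul_right hb).mul_right ha.inv_right).mul_right hb.inv_right))
  have sj : ∀ g ∉ N, ∀ x ∈ _root_.commutator X, ∃ y ∈ _root_.commutator X, y * g * y⁻¹ * g⁻¹ = x := fun g hg x hx => by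
    obtain ⟨y, hy⟩ := Finite.surjective_of_injective (f := fun y : _root_.commutator X =>
      (⟨y * g * (y : X)⁻¹ * g⁻¹, mF _ _⟩ : _root_.commutator X)) (fun a b e => by
        have e' : (a : X) * g * (a : X)⁻¹ = b * g * (b : X)⁻¹ := mul_right_cancel (congrArg Subtype.val e)
        refine Subtype.ext (inv_mul_eq_one.1 (f1 g hg _ (mul_mem (inv_mem b.2) a.2) ?_)).symm
        calc _ = (b : X)⁻¹ * (b * g * (b : X)⁻¹) * a := by group
          _ = _ := by rw [← e']; group) ⟨x, hx⟩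
    exact ⟨y, y.2, congrArg Subtype.val hy⟩
  have dec : ∀ ρ ∉ N, ∀ g, ∃ x ∈ _root_.commutator X, Commute ρ (x⁻¹ * g) := fun ρ hρ g => by
    obtain ⟨y, hy, e⟩ := sj ρ hρ _ (mF g ρ)
    have e' : y * ρ * y⁻¹ = g * ρ * g⁻¹ := mul_right_cancel e
    refine ⟨y, hy, ?_⟩
    calc ρ * (y⁻¹ * g) = y⁻¹ * (y * ρ * y⁻¹) * g := by group
      _ = y⁻¹ * g * ρ := by rw [e']; group
  have sN : ∀ w : W, w ≠ 1 → ∀ a : X, a • w = w → a ≠ 1 → a ∉ N := fun w w1 a aw a1 h => a1 (semi a h w w1 aw)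
  obtain ⟨w0, w01⟩ := exists_ne (1 : W)
  obtain ⟨x0, x0F, x01⟩ : ∃ x ∈ _root_.commutator X, x ≠ 1 := by
    obtain ⟨x, xN, xU⟩ := SetLike.not_le_iff_exists.1 ne
    obtain ⟨g, gN, -⟩ := stab w0 w01
    exact ⟨_, mF g x, fun e => xU (fix g gN x xN (commutatorElement_eq_one_iff_commute.1 e))⟩
  have cF : ∀ a ∈ _root_.commutator X, ∀ b ∈ _root_.commutator X, a * b = b * a := fun a ha b hb => hc a (FN ha) b (FN hb)
  have cf : ∀ R : Subgroup X, (∀ a ∈ R, a ≠ 1 → a ∉ N) → Nat.card (actFix W R) ^ Nat.card R = Nat.card W := fun R h =>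
    card_fix hW le_normalizer_of_normal cF (fun r hr r1 x hx c => f1 r (h r hr r1) x hx c)
      (eq_bot_iff.2 fun w hw => by_contra fun w1 => x01 (semi x0 (FN x0F) w w1 (hw x0 x0F)))
  have cf1 : ∀ R : Subgroup X, (∀ a ∈ R, a ≠ 1 → a ∉ N) → actFix W R ≠ ⊥ := fun R h e => by
    have := cf R h
    rw [e, card_bot, one_pow] at this
    exact Finite.one_lt_card.ne this
  have eqR : ∀ R R' : Subgroup X, R ≤ R' → (∀ a ∈ R', a ≠ 1 → a ∉ N) → actFix W R ≤ actFix W R' → R = R' := fun R R' l h k => by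
    have e := cf R fun a ha => h a (l ha)
    rw [le_antisymm k (actFix_anti l), ← cf R' h] at e
    exact eq_of_le_of_card_ge l (Nat.pow_right_injective ((one_lt_card_iff_ne_bot _).2 (cf1 R' h)) e).ge
  have cyP : ∀ P : Subgroup X, IsPGroup q P → IsCyclic P := fun P hP => by
    obtain ⟨v, hv, v1⟩ := hP.exists_fixed_point_of_prime_dvd_card_of_fixed_point W
      (orderOf_eq_prime (hW w0) w01 ▸ orderOf_dvd_natCard w0) (a := 1) fun a => smul_one a
    exact isCyclic_of_injective (π.comp P.subtype) ((injective_iff_map_eq_one _).2 fun a ha =>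
      Subtype.ext (semi a ((kπ _).1 ha) v v1.symm (hv a)))
  have ab' : ∀ w : W, w ≠ 1 → ∀ a ∈ stabilizer X w, ∀ b ∈ stabilizer X w, Commute a b := fun w w1 a ha b hb =>
    commutatorElement_eq_one_iff_commute.1 (semi _ (FN (mF a b)) w w1
      (mul_mem (mul_mem (mul_mem ha hb) (inv_mem ha)) (inv_mem hb)))
  have pm : ∀ w : W, w ≠ 1 → (Nat.card (stabilizer X w)).Prime := fun w w1 => by
    obtain ⟨g, gN, gw⟩ := stab w w1
    obtain ⟨r, hr, rd⟩ := Nat.exists_prime_and_dvd (n := Nat.card (stabilizer X w))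
      fun e => gN (mem_bot.1 ((card_eq_one.1 e).le gw) ▸ one_mem N)
    have := Fact.mk hr
    obtain ⟨⟨a, aw⟩, ha⟩ := exists_prime_orderOf_dvd_card' r rd
    have oa : orderOf a = r := (orderOf_coe _).trans ha
    have a1 : a ≠ 1 := fun e => hr.one_lt.ne' (by rw [← oa, e, orderOf_one])
    have ca : Nat.card (zpowers a) = r := by rw [Nat.card_zpowers, oa]
    obtain ⟨v, hv, k⟩ := reg_orbit (q := q) (fun w => ⟨1, by rw [pow_one, hW]⟩) (H := centralizer {a})
      (fun b hb c hc => ab a (sN w w1 a aw a1) b c (hb a rfl) (hc a rfl)) (fun P _ => cyP P) (U := actFix W (zpowers a))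
      fun b hb u hu => mem_actFix_zpowers.2 (by rw [← mul_smul, hb a rfl, mul_smul, mem_actFix_zpowers.1 hu])
    have key : ∀ u : W, u ≠ 1 → a • u = u → (∀ b : X, b • u = u → b • v = v) → zpowers a = stabilizer X u :=
      fun u u1 au l => eqR _ _ (zpowers_le.2 au) (fun b hb => sN u u1 b hb) fun z hz b hb =>
        k b (mem_centralizer_singleton_iff.2 (ab' u u1 b hb a au)) (l b hb) z hz
    by_cases v1 : v = 1
    · rwa [← key w w1 aw fun b _ => by rw [v1, smul_one], ca]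
    have e := key v v1 (mem_actFix_zpowers.1 hv) fun _ h => h
    have h1 := (stabilizer X w).index_mul_card
    rw [anti w v w1 v1 (e ▸ index_dvd_of_le (zpowers_le.2 aw)), ← e, ← (zpowers a).index_mul_card] at h1
    rwa [Nat.eq_of_mul_eq_mul_left (Nat.pos_of_ne_zero index_ne_zero_of_finite) h1, ca]
  have nd : ∀ w : W, w ≠ 1 → ¬ Nat.card (stabilizer X w) ∣ Nat.card N := fun w w1 ⟨m, hm⟩ => ndvd w w1
    ⟨m, Nat.eq_of_mul_eq_mul_right (Nat.card_pos (α := stabilizer X w)) (by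
      rw [index_mul_card, ← N.index_mul_card, hm]; ring)⟩
  have two : ∀ ρ ∉ N, ∀ m : ℕ, m.Coprime (Nat.card N) → ρ ^ m = 1 → ∀ σ, Commute ρ σ → σ ^ m = 1 → σ ≠ 1 →
      zpowers ρ = zpowers σ := fun ρ hρ m cm ρm σ c σm σ1 => by
    let E : Subgroup X :=
      { carrier := {z | Commute ρ z ∧ z ^ m = 1}
        mul_mem' := fun {a b} ha hb => ⟨ha.1.mul_right hb.1, by rw [(ab ρ hρ a b ha.1 hb.1).mul_pow, ha.2, hb.2, one_mul]⟩
        one_mem' := ⟨.one_right ρ, one_pow m⟩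
        inv_mem' := fun {a} ha => ⟨ha.1.inv_right, by rw [inv_pow, ha.2, inv_one]⟩ }
    obtain ⟨⟨v, hv⟩, v1⟩ := ne_bot_iff_exists_ne_one.1 (cf1 E fun a ha a1 h => a1 (orderOf_eq_one_iff.1
      (Nat.eq_one_of_dvd_coprimes cm (orderOf_dvd_of_pow_eq_one ha.2) (N.orderOf_dvd_natCard h))))
    have v1' : v ≠ 1 := fun e => v1 (Subtype.ext e)
    exact (Lin.pr (pm v v1') (hv ρ ⟨.refl ρ, ρm⟩) fun e => hρ (e ▸ one_mem N)).trans (Lin.pr (pm v v1') (hv σ ⟨c, σm⟩) σ1).symm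
  have el : ∀ w : W, w ≠ 1 → ∃ σ ∉ N, σ • w = w ∧ (orderOf σ).Prime ∧ (orderOf σ).Coprime (Nat.card N) := fun w w1 => by
    obtain ⟨g, gN, gw⟩ := stab w w1
    have e : orderOf g = Nat.card (stabilizer X w) := by
      rw [← Lin.pr (pm w w1) gw fun e => gN (e ▸ one_mem N), Nat.card_zpowers]
    exact ⟨g, gN, gw, e ▸ pm w w1, e ▸ (Nat.Prime.coprime_iff_not_dvd (pm w w1)).2 (nd w w1)⟩
  obtain ⟨ρ, ρN, ρw, hr, cr⟩ := el w0 w01
  obtain ⟨r, or⟩ : ∃ r, orderOf ρ = r := ⟨_, rfl⟩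
  have ρr : ρ ^ r = 1 := or ▸ pow_orderOf_eq_one ρ
  rw [or] at hr cr
  obtain ⟨x, xF, ch⟩ := dec ρ ρN g0
  obtain ⟨h, hh⟩ : ∃ h, h = x⁻¹ * g0 := ⟨_, rfl⟩
  rw [← hh] at ch
  have oh : ∀ k : ℕ, h ^ k ∈ N ↔ N.index ∣ k := fun k => by
    rw [← kπ, map_pow, hh, map_mul, map_inv, (kπ x).2 (FN xF), inv_one, one_mul, ← og, orderOf_dvd_iff_pow_eq_one]
  obtain ⟨k, hk⟩ : r ∣ N.index := cr.dvd_of_dvd_mul_right (N.index_mul_card ▸ or ▸ orderOf_dvd_natCard ρ)
  by_contra np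
  obtain ⟨s, hs, j, rfl⟩ := Nat.exists_prime_and_dvd (n := k) fun e => np (by rwa [hk, e, mul_one])
  have j0 : 0 < j := Nat.pos_of_ne_zero fun e => index_ne_zero_of_finite (hk.trans (by rw [e, mul_zero, mul_zero]))
  by_cases e : s = r
  · subst e
    have e1 : (h ^ (Nat.card N * j)) ^ s = 1 := by_contra fun n1 => by
      have z := two ρ ρN (s * s) (cr.mul_left cr) (by rw [pow_mul, ρr, one_pow]) (h ^ (Nat.card N * j)) (ch.pow_right _)
        (by rw [← pow_mul, show Nat.card N * j * (s * s) = s * (s * j) * Nat.card N by ring, ← hk, index_mul_card,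
          pow_card_eq_one']) fun e => n1 (by rw [e, one_pow])
      exact n1 (by rw [← or, ← Nat.card_zpowers, z, Nat.card_zpowers, pow_orderOf_eq_one])
    have e2 := (oh (Nat.card N * j * s)).1 (by rw [pow_mul, e1]; exact one_mem N)
    rw [hk, show s * (s * j) = s * (j * s) by ring, mul_assoc] at e2
    exact (Nat.Prime.coprime_iff_not_dvd hs).1 cr (Nat.dvd_of_mul_dvd_mul_right (Nat.mul_pos j0 hs.pos) e2)
  have gs : (h ^ (r * j)) ^ s ∈ N := by rw [← pow_mul, oh, hk]; exact ⟨1, by ring⟩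
  refine lin3 (F := _root_.commutator X) (ρ := ρ) (g := h ^ (r * j)) hr hs hW (fun e => x01 (mem_bot.1 (e.le x0F))) cF
    (fun x hx => semi x (FN hx)) (le_normalizer_of_normal (K := ⊤) (mem_top _)) (le_normalizer_of_normal (K := ⊤) (mem_top _))
    (ch.pow_right _) ρr (fun x hx => hc _ gs x (FN hx)) (fun a b y yF y1 c => ?_) fun w => ?_
  · have m : ρ ^ a * (h ^ (r * j)) ^ b ∈ N := by_contra fun m => y1 (f1 _ m y yF c)
    have m1 := pow_mem m r
    rw [(((ch.pow_right _).pow_right _).pow_left _).mul_pow, ← pow_mul ρ, mul_comm a, pow_mul ρ, ρr, one_pow, one_mul,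
      ← pow_mul, ← pow_mul, oh, hk, show r * (s * j) = r * j * s by ring] at m1
    obtain ⟨b, rfl⟩ := ((Nat.coprime_primes hs hr).2 e).dvd_of_dvd_mul_right
      (Nat.dvd_of_mul_dvd_mul_left (Nat.mul_pos hr.pos j0) m1)
    rw [pow_mul _ s, mul_mem_cancel_right (pow_mem gs b)] at m
    exact ⟨or ▸ orderOf_dvd_of_pow_eq_one (semi _ m w0 w01 (pow_mem (show ρ ∈ stabilizer X w0 from ρw) a)), dvd_mul_right _ _⟩
  · by_cases w1 : w = 1
    · exact ⟨1, one_mem _, by rw [w1, smul_one, smul_one]⟩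
    obtain ⟨σ, σN, σw, -, cσ⟩ := el w w1
    obtain ⟨y, yF, c⟩ := dec ρ ρN σ
    obtain ⟨z, zF, e⟩ := sj (y⁻¹ * σ) (by rwa [mul_mem_cancel_left (inv_mem (FN yF))]) y yF
    have e' : y⁻¹ * σ = z⁻¹ * σ * z⁻¹⁻¹ := by
      nth_rw 2 [← mul_inv_cancel_left y σ]
      nth_rw 2 [← e]
      group
    have l := two ρ ρN (r * orderOf σ) (cr.mul_left cσ) (by rw [pow_mul, ρr, one_pow]) _ c
      (by rw [e', conj_pow, mul_comm r, pow_mul, pow_orderOf_eq_one, one_pow, mul_one, mul_inv_cancel])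
      fun e => σN (inv_mul_eq_one.1 e ▸ FN yF)
    refine ⟨z⁻¹, inv_mem zF, (l.le.trans (zpowers_le.2 ?_) : _ ≤ stabilizer X (z⁻¹ • w)) (mem_zpowers ρ)⟩
    rw [mem_stabilizer_iff, e', mul_smul, mul_smul, inv_smul_smul, σw]

end CL.N4
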