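import Cfsg.Agent.ORD.N4.RO

/-! A spread of fixed spaces admits no further Galois automorphism. -/

set_option autoImplicit false

namespace CL.N4

open Subgroup

variable {X W : Type*} [Group X] [Finite X] [CommGroup W] [Finite W] [MulDistribMulAction X W]

namespace Lin3

omit [Finite X] in
theorem dvd {F : Subgroup X} (semi : ∀ x ∈ F, ∀ w : W, w ≠ 1 → x • w = w → x = 1) {U : Subgroup W}
    (hU : ∀ x ∈ F, ∀ u ∈ U, x • u ∈ U) : ∃ k, Nat.card U = Nat.card F * k + 1 := by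
  let A : SubMulAction F W := ⟨{w | w ∈ U ∧ w ≠ 1}, fun x w hw => ⟨hU x x.2 w hw.1, fun e => hw.2 (by
    have : (x : X) • w = (x : X) • (1 : W) := by rw [smul_one]; exact e
    exact smul_left_cancel _ this)⟩⟩
  have e := Nat.card_congr (MulAction.selfEquivOrbitsQuotientProd (G := F) (X := A) fun b =>
    eq_bot_iff.2 fun x hx => Subtype.ext (semi x x.2 b b.2.2 (congrArg Subtype.val hx)))
  rw [Nat.card_prod] at e
  refine ⟨Nat.card (Quotient (MulAction.orbitRel F A)), ?_⟩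
  rw [mul_comm, ← e]
  change (U : Set W).ncard = ((U : Set W) \ {1}).ncard + 1
  rw [Set.ncard_sdiff_singleton_add_one (U.one_mem)]

theorem irr {F : Subgroup X} (semi : ∀ x ∈ F, ∀ w : W, w ≠ 1 → x • w = w → x = 1) {c : ℕ}
    (h1 : c * c ≤ Nat.card W) (h2 : Nat.card W ≤ Nat.card F * c) {U : Subgroup W}
    (hU : ∀ x ∈ F, ∀ u ∈ U, x • u ∈ U) : U = ⊥ ∨ U = ⊤ := by
  by_contra k
  push Not at k
  obtain ⟨a, ha⟩ := dvd semi hU
  obtain ⟨b, hb⟩ := dvd semi (U := ⊤) fun _ _ _ _ => mem_top _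
  rw [card_top] at hb
  have e := U.card_mul_index
  have u1 : 1 < Nat.card U := (one_lt_card_iff_ne_bot U).2 k.1
  have i1 : 1 < U.index := one_lt_index_of_ne_top k.2
  have f0 : 0 < Nat.card F := Nat.card_pos
  generalize Nat.card F = f at *
  generalize Nat.card W = n at *
  generalize Nat.card U = u at *
  obtain ⟨m, hm⟩ : ∃ m, U.index = m + 1 := ⟨U.index - 1, by omega⟩
  rw [hm] at e i1
  have d : f ∣ m := by
    have : f * b = f * (a * (m + 1)) + m := by nlinarith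
    exact (Nat.dvd_add_right (dvd_mul_right _ _)).1 (this ▸ dvd_mul_right f b)
  have l1 : f ≤ m := Nat.le_of_dvd (by omega) d
  have a0 : 1 ≤ a := Nat.pos_of_ne_zero fun z => by rw [z] at ha; omega
  have l2 : f + 1 ≤ u := by nlinarith
  have l3 : (f + 1) * (f + 1) ≤ n := e ▸ Nat.mul_le_mul l2 (by omega)
  have l4 : f < c := by
    by_contra z
    have := Nat.mul_le_mul_left f (not_lt.1 z)
    nlinarith
  nlinarith

end Lin3

open Lin3

/-- PROOF. `C = actFix W (zpowers ρ)`, `w0 = |C|`, `w0 ^ r = |W|` (`card_fix`; `orderOf ρ = r`).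
`(x, c) ↦ x • c` is a bijection `F × (C \ 1) → W \ 1` (`cover`; if `x • c = c' ∈ C` then
`ρ x ρ⁻¹ x⁻¹`-type elements of `F` fix `c`, `semi`, `fpf`), so `|W| - 1 = |F| (w0 - 1)` and
`|F| ≥ w0 ^ (r-1) + 1`. An `F`-invariant `1 < W1 < W` has `|F| ∣ |W1| - 1`, `|F| ∣ |W| - 1`, so
`|F| ∣ |W : W1| - 1`, `(|F| + 1)² ≤ |W|`: false. Let `S` be the subgroup of `W →* W` (pointwise
product) generated by the maps `x • ·`, `x ∈ F`; its elements commute with `F` and with each other,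
`ρ S ρ⁻¹ = S`. Fix `1 ≠ w ∈ C`; `S w = W`, `φ ∈ S` is determined by `φ w` and bijective if
`φ w ≠ 1`. Take `a ∈ S` with `a w = g • w ∈ C`; `a` commutes with `ρ`. In `MulAut W` put
`g' = a⁻¹ g`: it fixes `w`, acts on (the image of) `F` as `g`, commutes with `ρ`, and
`g' ^ r' = 1` (it centralises `F`, so `S`, and fixes `w`). `card_fix` in `MulAut W` for
`zpowers g'` and `zpowers g' ⊔ zpowers ρ` (orders `r'`, `r r'`) gives `v ∉ C` fixed by `g'`;
`v = x • c`, `x ≠ 1`, and `v = g' v = (g x g⁻¹) • g' c` with `g' c ∈ C` forces `g x g⁻¹ = x`. -/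
theorem lin3 [Nontrivial W] {q r r' : ℕ} [Fact q.Prime] (hr : r.Prime) (hr' : r'.Prime)
    (hW : ∀ w : W, w ^ q = 1) {F : Subgroup X} (hF : F ≠ ⊥)
    (hc : ∀ a ∈ F, ∀ b ∈ F, a * b = b * a)
    (semi : ∀ x ∈ F, ∀ w : W, w ≠ 1 → x • w = w → x = 1) {ρ g : X} (hρ : ρ ∈ normalizer F)
    (hg : g ∈ normalizer F) (hρg : ρ * g = g * ρ) (hρr : ρ ^ r = 1)
    (hgr : ∀ x ∈ F, g ^ r' * x = x * g ^ r')
    (fpf : ∀ i j : ℕ, ∀ x ∈ F, x ≠ 1 → ρ ^ i * g ^ j * x = x * (ρ ^ i * g ^ j) → r ∣ i ∧ r' ∣ j)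
    (cover : ∀ w : W, ∃ x ∈ F, ρ • x • w = x • w) : False := by
  classical
  obtain ⟨w₀, w₀1⟩ := exists_ne (1 : W)
  obtain ⟨x₀, hx₀, x₀1⟩ := (bot_or_exists_ne_one F).resolve_left hF
  have ne1 : ∀ (x : X) {w : W}, w ≠ 1 → x • w ≠ 1 := fun x w h e =>
    h (smul_left_cancel x (by rw [smul_one]; exact e))
  have cρ : ∀ x ∈ F, ρ * x = x * ρ → x = 1 := fun x hx e => by
    by_contra x1
    exact hr.one_lt.ne' (Nat.dvd_one.1 (fpf 1 0 x hx x1 (by simpa using e)).1)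
  have uniq : ∀ x ∈ F, ∀ y ∈ F, ∀ v : W, v ≠ 1 → ρ • x • v = x • v → ρ • y • v = y • v → x = y := by
    intro x hx y hy v v1 e1 e2
    have hz := mul_mem hy (inv_mem hx)
    have := semi _ (mul_mem (inv_mem hz) ((mem_normalizer_iff.1 hρ _).1 hz)) (x • v) (ne1 x v1) (by
      rw [mul_smul, mul_smul, mul_smul, inv_smul_eq_iff, inv_smul_eq_iff.2 e1.symm, mul_smul, inv_smul_smul, e2])
    have := cρ _ hz (by rw [← mul_inv_eq_iff_eq_mul]; exact (inv_mul_eq_one.1 this).symm)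
    exact (mul_inv_eq_one.1 this).symm
  have h0 : actFix W F = ⊥ := eq_bot_iff.2 fun w hw => by
    by_contra w1
    exact x₀1 (semi x₀ hx₀ w w1 (hw x₀ hx₀))
  have c1 := card_fix hW (F := F) (R := zpowers ρ) (zpowers_le.2 hρ) hc (fun t ht t1 x hx e => by
    obtain ⟨i, rfl⟩ := (mem_powers_iff_mem_zpowers.2 ht)
    by_contra x1
    obtain ⟨k, rfl⟩ := (fpf i 0 x hx x1 (by simpa using e)).1
    exact t1 (by simp only [pow_mul, hρr, one_pow])) h0
  have ir : ∀ U : Subgroup W, (∀ x ∈ F, ∀ u ∈ U, x • u ∈ U) → U = ⊥ ∨ U = ⊤ := fun U =>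
    irr semi (c := Nat.card (actFix W (zpowers ρ))) (by
      rw [← c1, ← sq]
      refine Nat.pow_le_pow_right Nat.card_pos ((one_lt_card_iff_ne_bot _).2 fun e => x₀1 (cρ x₀ hx₀ ?_))
      rw [zpowers_eq_bot.1 e, one_mul, mul_one]) (by
      rw [← Nat.card_prod]
      refine Nat.card_le_card_of_surjective (fun p : F × actFix W (zpowers ρ) => (p.1 : X)⁻¹ • (p.2 : W)) fun w => ?_
      obtain ⟨x, hx, e⟩ := cover w
      exact ⟨(⟨x, hx⟩, ⟨x • w, mem_actFix_zpowers.2 e⟩), inv_smul_smul x w⟩)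
  obtain ⟨w, w1, ρw⟩ : ∃ w : W, w ≠ 1 ∧ ρ • w = w := by
    obtain ⟨x, -, e⟩ := cover w₀
    exact ⟨_, ne1 x w₀1, e⟩
  have inj : ∀ a : W →* W, (∀ x ∈ F, ∀ v, a (x • v) = x • a v) → a w ≠ 1 → Function.Injective a := fun a ha a1 => by
    rcases ir a.ker (fun x hx u hu => by rw [MonoidHom.mem_ker, ha x hx, MonoidHom.mem_ker.1 hu, smul_one]) with e | e
    · exact (MonoidHom.ker_eq_bot_iff a).1 e
    · exact (a1 (MonoidHom.mem_ker.1 (e ▸ mem_top w))).elim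
  have det : ∀ a b : W →* W, (∀ x ∈ F, ∀ v, a (x • v) = x • a v) → (∀ x ∈ F, ∀ v, b (x • v) = x • b v) → a w = b w →
      ∀ v, a v = b v := fun a b ha hb e v => by
    rcases ir (a.eqLocus b) (fun x hx u hu => by
      change a _ = b _
      rw [ha x hx, hb x hx, show a u = b u from hu]) with k | k
    · exact (w1 (mem_bot.1 (k ▸ show w ∈ a.eqLocus b from e))).elim
    · exact (show v ∈ a.eqLocus b from k ▸ mem_top v)
  let T : Subgroup W :=
    { carrier := {v | ∃ a : W →* W, (∀ x ∈ F, ∀ v, a (x • v) = x • a v) ∧ a w = v}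
      one_mem' := ⟨1, fun x _ v => by simp, rfl⟩
      mul_mem' := by
        rintro _ _ ⟨a, ha, rfl⟩ ⟨b, hb, rfl⟩
        exact ⟨a * b, fun x hx v => by simp only [MonoidHom.mul_apply, ha x hx, hb x hx, smul_mul'], rfl⟩
      inv_mem' := by
        rintro _ ⟨a, ha, rfl⟩
        exact ⟨a⁻¹, fun x hx v => by simp only [MonoidHom.inv_apply, ha x hx, smul_inv'], rfl⟩ }
  have Tt : T = ⊤ := (ir T (by
    rintro x hx _ ⟨a, ha, rfl⟩
    refine ⟨(MulDistribMulAction.toMonoidHom W x).comp a, fun y hy v => ?_, rfl⟩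
    change x • a (y • v) = y • x • a v
    rw [ha y hy, ← mul_smul, ← mul_smul, hc x hx y hy])).resolve_left fun e =>
      w1 (mem_bot.1 (e ▸ show w ∈ T from ⟨MonoidHom.id W, fun _ _ _ => rfl, rfl⟩))
  obtain ⟨a, ha, aw⟩ : g • w ∈ T := Tt ▸ mem_top _
  have ai := inj a ha (aw ▸ ne1 g w1)
  let α : MulAut W := MulEquiv.ofBijective a (Finite.injective_iff_bijective.1 ai)
  let φ : X →* MulAut W := MulDistribMulAction.toMulAut X W
  have φa : ∀ x v, φ x v = x • v := fun _ _ => rfl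
  have αF : ∀ x ∈ F, α * φ x = φ x * α := fun x hx => MulEquiv.ext fun v => ha x hx v
  have αρ : Commute α (φ ρ) := MulEquiv.ext fun v => by
    have := det ((MulDistribMulAction.toMonoidHom W ρ⁻¹).comp (a.comp (MulDistribMulAction.toMonoidHom W ρ))) a
      (fun x hx v => by
        change ρ⁻¹ • a (ρ • x • v) = x • ρ⁻¹ • a (ρ • v)
        rw [show ρ • x • v = (ρ * x * ρ⁻¹) • ρ • v by rw [← mul_smul, ← mul_smul, inv_mul_cancel_right],
          ha _ ((mem_normalizer_iff.1 hρ x).1 hx), ← mul_smul, ← mul_smul]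
        congr 1
        group) ha (by
        change ρ⁻¹ • a (ρ • w) = a w
        rw [ρw, aw, inv_smul_eq_iff, ← mul_smul, hρg, mul_smul, ρw]) v
    exact inv_smul_eq_iff.1 this
  set γ := α⁻¹ * φ g with hγ
  have γw : γ w = w := by
    change α.symm (g • w) = w
    rw [MulEquiv.symm_apply_eq]
    exact aw.symm
  have γρ : Commute (φ ρ) γ := αρ.symm.inv_right.mul_right (by
    change φ ρ * φ g = φ g * φ ρ
    rw [← map_mul, ← map_mul, hρg])
  have nj : ∀ (j : ℕ), ∀ x ∈ F, g ^ j * x * (g ^ j)⁻¹ ∈ F := fun j x hx =>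
    (mem_normalizer_iff.1 (pow_mem hg j) x).1 hx
  have γj : ∀ (j : ℕ), ∀ x ∈ F, γ ^ j * φ x * (γ ^ j)⁻¹ = φ (g ^ j * x * (g ^ j)⁻¹) := fun j x hx => by
    induction j with
    | zero => simp
    | succ j ih =>
      calc γ ^ (j + 1) * φ x * (γ ^ (j + 1))⁻¹ = γ * (γ ^ j * φ x * (γ ^ j)⁻¹) * γ⁻¹ := by rw [pow_succ']; group
        _ = α⁻¹ * φ (g * (g ^ j * x * (g ^ j)⁻¹) * g⁻¹) * α := by rw [ih, hγ, map_mul _ _ g⁻¹, map_mul _ g, map_inv]; group
        _ = α⁻¹ * (φ (g ^ (j + 1) * x * (g ^ (j + 1))⁻¹) * α) := by rw [mul_assoc, pow_succ']; congr 3; group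
        _ = _ := by rw [← αF _ (nj _ x hx), inv_mul_cancel_left]
  have γij : ∀ (i j : ℕ), ∀ x ∈ F, φ ρ ^ i * γ ^ j * φ x * (φ ρ ^ i * γ ^ j)⁻¹ =
      φ (ρ ^ i * g ^ j * x * (ρ ^ i * g ^ j)⁻¹) := fun i j x hx => by
    calc _ = φ ρ ^ i * (γ ^ j * φ x * (γ ^ j)⁻¹) * (φ ρ ^ i)⁻¹ := by group
      _ = _ := by rw [γj j x hx, ← map_pow, ← map_inv, ← map_mul, ← map_mul]; congr 1; group
  have nij : ∀ (i j : ℕ), ∀ x ∈ F, ρ ^ i * g ^ j * x * (ρ ^ i * g ^ j)⁻¹ ∈ F := fun i j x hx =>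
    (mem_normalizer_iff.1 (mul_mem (pow_mem hρ i) (pow_mem hg j)) x).1 hx
  have φi : ∀ x ∈ F, ∀ y ∈ F, φ x = φ y → x = y := fun x hx y hy e => by
    have := semi _ (mul_mem (inv_mem hx) hy) w w1 (by rw [mul_smul, inv_smul_eq_iff, ← φa, ← φa, e])
    exact inv_mul_eq_one.1 this
  have γr : γ ^ r' = 1 := MulEquiv.ext fun v => det (γ ^ r').toMonoidHom (MonoidHom.id W) (fun x hx v => by
    have := γj r' x hx
    rw [hgr x hx, mul_inv_cancel_right, mul_inv_eq_iff_eq_mul] at this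
    exact congrArg (fun t : MulAut W => t v) this) (fun _ _ _ => rfl)
    (MulAction.mem_stabilizer_iff.1 (pow_mem (show γ ∈ MulAction.stabilizer (MulAut W) w from γw) r')) v
  have key : ∀ (i j : ℕ), ∀ x ∈ F, x ≠ 1 → φ ρ ^ i * γ ^ j * φ x = φ x * (φ ρ ^ i * γ ^ j) → r ∣ i ∧ r' ∣ j :=
    fun i j x hx x1 e => fpf i j x hx x1 (mul_inv_eq_iff_eq_mul.1 (φi _ (nij i j x hx) x hx (by
      rw [← γij i j x hx, e, mul_inv_cancel_right])))
  have cf : ∀ R : Subgroup (MulAut W), (∀ t ∈ R, ∃ i j : ℕ, t = φ ρ ^ i * γ ^ j) →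
      Nat.card (actFix W R) ^ Nat.card R = Nat.card W := fun R hR =>
    card_fix hW (F := F.map φ) (fun t ht => by
      obtain ⟨i, j, rfl⟩ := hR t ht
      refine mem_normalizer_fintype ?_
      rintro _ ⟨x, hx, rfl⟩
      exact ⟨_, nij i j x hx, (γij i j x hx).symm⟩) (by
      rintro _ ⟨x, hx, rfl⟩ _ ⟨y, hy, rfl⟩
      rw [← map_mul, ← map_mul, hc x hx y hy]) (by
      rintro t ht t1 _ ⟨x, hx, rfl⟩ e
      obtain ⟨i, j, rfl⟩ := hR t ht
      by_contra x1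
      obtain ⟨⟨k, rfl⟩, ⟨l, rfl⟩⟩ := key i j x hx (fun z => x1 (by rw [z, map_one])) e
      exact t1 (by rw [pow_mul, pow_mul, ← map_pow, hρr, γr, map_one, one_pow, one_pow, one_mul]))
      (eq_bot_iff.2 fun v hv => h0.le fun x hx => hv _ ⟨x, hx, rfl⟩)
  let R : Subgroup (MulAut W) :=
    { carrier := {t | ∃ s ∈ zpowers (φ ρ), ∃ u ∈ zpowers γ, t = s * u}
      one_mem' := ⟨1, one_mem _, 1, one_mem _, (mul_one 1).symm⟩
      mul_mem' := by
        rintro _ _ ⟨_, ⟨i, rfl⟩, _, ⟨j, rfl⟩, rfl⟩ ⟨_, ⟨k, rfl⟩, _, ⟨l, rfl⟩, rfl⟩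
        exact ⟨_, mul_mem ⟨i, rfl⟩ ⟨k, rfl⟩, _, mul_mem ⟨j, rfl⟩ ⟨l, rfl⟩,
          (γρ.zpow_zpow k j).symm.mul_mul_mul_comm _ _⟩
      inv_mem' := by
        rintro _ ⟨_, ⟨i, rfl⟩, _, ⟨j, rfl⟩, rfl⟩
        exact ⟨_, inv_mem ⟨i, rfl⟩, _, inv_mem ⟨j, rfl⟩, (γρ.zpow_zpow i j).mul_inv⟩ }
  have le : zpowers γ ≤ R := fun u hu => ⟨1, one_mem _, u, hu, (one_mul u).symm⟩
  have ρR : φ ρ ∈ R := ⟨_, mem_zpowers _, 1, one_mem _, (mul_one _).symm⟩
  have f1 := cf (zpowers γ) fun t ht => by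
    obtain ⟨j, rfl⟩ := mem_powers_iff_mem_zpowers.2 ht
    exact ⟨0, j, by simp⟩
  have f2 := cf R (by
    rintro _ ⟨s, hs, u, hu, rfl⟩
    obtain ⟨i, rfl⟩ := mem_powers_iff_mem_zpowers.2 hs
    obtain ⟨j, rfl⟩ := mem_powers_iff_mem_zpowers.2 hu
    exact ⟨i, j, rfl⟩)
  have fx : ∀ v, γ v = v → ρ • v = v := fun v hv => by
    by_contra nv
    have v1 : v ≠ 1 := fun e => nv (by rw [e, smul_one])
    obtain ⟨x, hx, e⟩ := cover v
    have x1 : x ≠ 1 := fun z => nv (by simpa [z] using e)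
    have e1 : γ (x • v) = (g * x * g⁻¹) • v := by
      have := γj 1 x hx
      rw [pow_one, pow_one, mul_inv_eq_iff_eq_mul] at this
      have := congrArg (fun t : MulAut W => t v) this
      simpa only [MulAut.mul_apply, hv, φa] using this
    have e2 : ρ • γ (x • v) = γ (x • v) := by
      have := congrArg (fun t : MulAut W => t (x • v)) γρ.eq
      simpa only [MulAut.mul_apply, φa, e] using this
    rw [e1] at e2
    have := uniq _ ((mem_normalizer_iff.1 hg x).1 hx) x hx v v1 e2 e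
    exact hr'.one_lt.ne' (Nat.dvd_one.1 (fpf 0 1 x hx x1 (by simpa using mul_inv_eq_iff_eq_mul.1 this)).2)
  have eq : actFix W R = actFix W (zpowers γ) := le_antisymm (fun v hv t ht => hv t (le ht)) fun v hv => by
    rintro _ ⟨s, hs, u, hu, rfl⟩
    rw [mul_smul, hv u hu]
    exact (mem_actFix_zpowers (a := φ ρ)).2 (fx v (hv γ (mem_zpowers γ))) s hs
  rw [eq, ← f1] at f2
  have n1 : 1 < Nat.card (actFix W (zpowers γ)) :=
    (one_lt_card_iff_ne_bot _).2 fun e => w1 (mem_bot.1 (e ▸ mem_actFix_zpowers.2 γw))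
  have e := eq_of_le_of_card_ge le (Nat.pow_right_injective n1 f2).le
  obtain ⟨j, hj⟩ := mem_powers_iff_mem_zpowers.2 (show (φ ρ)⁻¹ ∈ zpowers γ from e ▸ inv_mem ρR)
  exact hr.one_lt.ne' (Nat.dvd_one.1 (key 1 j x₀ hx₀ x₀1 (by
    rw [show γ ^ j = (φ ρ)⁻¹ from hj, pow_one, mul_inv_cancel, one_mul, mul_one])).1)

end CL.N4
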