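import Cfsg.Agent.SOLV.Hol
import Cfsg.Agent.FGS.FreeMod

/-! Regular orbits of abelian groups and fixed points of Frobenius complements. -/

set_option autoImplicit false

namespace CL.N4

open Subgroup

namespace RO

theorem card_free {k V Γ : Type*} [Field k] [AddCommGroup V] [Module k V] [FiniteDimensional k V] [Group Γ] [Finite Γ]
    {ρ : Representation k Γ V} (h : FreeMod.Free ρ) : Nat.card V = Nat.card ρ.invariants ^ Nat.card Γ := by
  classical
  obtain ⟨W, hW, hd⟩ := h
  have := Fintype.ofFinite Γ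
  let Φ : (Γ → W) →ₗ[k] V := ∑ g, ρ g ∘ₗ W.subtype ∘ₗ LinearMap.proj g
  have hΦ : ∀ w, Φ w = ∑ g, ρ g (w g) := fun w => by simp [Φ]
  have hs : Function.Surjective Φ := LinearMap.range_eq_top.1 (top_le_iff.1 (hW ▸ iSup_le fun g => by
    rintro _ ⟨w, hw, rfl⟩
    refine ⟨Pi.single g ⟨w, hw⟩, ?_⟩
    rw [hΦ, Finset.sum_eq_single g (fun b _ hb => by simp [hb]) (by simp)]
    simp))
  have hi : Function.Injective Φ := by
    rw [← LinearMap.ker_eq_bot, ← Submodule.finrank_eq_zero]
    have := LinearMap.finrank_range_add_finrank_ker Φ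
    rw [LinearMap.range_eq_top.mpr hs, finrank_top, Module.finrank_pi_fintype, Finset.sum_const, Finset.card_univ, smul_eq_mul,
      ← Nat.card_eq_fintype_card] at this
    omega
  have sh : ∀ (a : Γ) w, ρ a (Φ w) = Φ fun g => w (a⁻¹ * g) := fun a w => by
    rw [hΦ, hΦ, map_sum, ← Equiv.sum_comp (Equiv.mulLeft a) fun g => ρ g (w (a⁻¹ * g))]
    simp
  rw [← Nat.card_eq_of_bijective Φ ⟨hi, hs⟩, Nat.card_fun, Nat.card_eq_of_bijective
    (fun w : W => (⟨Φ fun _ => w, fun a => sh a _⟩ : ρ.invariants)) ⟨fun w w' e => congrFun (hi (congrArg Subtype.val e)) 1, fun v => ?_⟩]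
  obtain ⟨w, e⟩ := hs v
  refine ⟨w 1, Subtype.ext (Eq.trans (congrArg Φ (funext fun g => ?_)) e)⟩
  simpa using congrFun (hi ((sh g w).symm.trans (e ▸ v.2 g))) g

/-- The linear representation attached to an action on an elementary abelian group. -/
def rep (X W : Type*) [Group X] [CommGroup W] [MulDistribMulAction X W] (q : ℕ) [Module (ZMod q) (Additive W)] :
    Representation (ZMod q) X (Additive W) where
  toFun x := (MonoidHom.toAdditive (MulDistribMulAction.toMonoidHom W x)).toZModLinearMap q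
  map_one' := LinearMap.ext fun w => congrArg Additive.ofMul (one_smul X w.toMul)
  map_mul' a b := LinearMap.ext fun w => congrArg Additive.ofMul (mul_smul a b w.toMul)

end RO

variable {X W : Type*} [Group X] [Finite X] [CommGroup W] [Finite W] [MulDistribMulAction X W]

namespace RO

omit [Finite W] in
theorem q_part {q : ℕ} [hp : Fact q.Prime] {H : Subgroup X}
    (hc : ∀ a ∈ H, ∀ b ∈ H, a * b = b * a) (hq : ∀ P ≤ H, IsPGroup q P → IsCyclic P) (U : Subgroup W) :
    ∃ w ∈ U, ∀ a ∈ H, (∃ k : ℕ, a ^ q ^ k = 1) → a • w = w → a ∈ fixingSubgroup X (U : Set W) := by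
  classical
  let P : Subgroup X :=
    { carrier := {a | a ∈ H ∧ ∃ k : ℕ, a ^ q ^ k = 1}
      one_mem' := ⟨one_mem _, 0, one_pow _⟩
      mul_mem' := by
        rintro a b ⟨ha, i, hi⟩ ⟨hb, j, hj⟩
        refine ⟨mul_mem ha hb, i + j, ?_⟩
        rw [Commute.mul_pow (hc a ha b hb), pow_add, pow_mul, hi, one_pow, mul_comm (q ^ i), pow_mul, hj, one_pow, one_mul]
      inv_mem' := by
        rintro a ⟨ha, i, hi⟩
        exact ⟨inv_mem ha, i, by rw [inv_pow, hi, inv_one]⟩ }
  have := hq P (fun a ha => ha.1) fun a => a.2.2.imp fun k hk => Subtype.ext hk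
  obtain ⟨⟨g, hg, k, hk⟩, hgen⟩ := IsCyclic.exists_monoid_generator (α := P)
  have ex : ∃ j : ℕ, g ^ q ^ j ∈ fixingSubgroup X (U : Set W) := ⟨k, hk ▸ one_mem _⟩
  have key : ∀ w : W, (∀ i < Nat.find ex, g ^ q ^ i • w ≠ w) →
      ∀ a ∈ H, (∃ k : ℕ, a ^ q ^ k = 1) → a • w = w → a ∈ fixingSubgroup X (U : Set W) := fun w hw a ha hak e => by
    obtain ⟨m, hm⟩ := hgen ⟨a, ha, hak⟩
    obtain rfl : g ^ m = a := congrArg Subtype.val hm
    rcases eq_or_ne m 0 with rfl | m0
    · simp
    obtain ⟨i, n, hn, rfl⟩ := Nat.exists_eq_pow_mul_and_not_dvd m0 q hp.out.ne_one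
    rw [pow_mul] at e ⊢
    by_cases h : i < Nat.find ex
    · have co : n.Coprime (orderOf (g ^ q ^ i)) :=
        (Nat.Coprime.pow_right k ((hp.out.coprime_iff_not_dvd.2 hn).symm)).coprime_dvd_right
          (orderOf_dvd_of_pow_eq_one (by rw [← pow_mul, mul_comm, pow_mul, hk, one_pow]))
      obtain ⟨t, ht⟩ := exists_pow_eq_self_of_coprime co
      exact absurd (ht ▸ pow_mem (show _ ∈ MulAction.stabilizer X w from e) t) (hw i h)
    · obtain ⟨d, rfl⟩ := Nat.exists_eq_add_of_le (not_lt.1 h)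
      rw [pow_add, pow_mul]
      exact pow_mem (pow_mem (Nat.find_spec ex) _) _
  rcases h : Nat.find ex with _ | j
  · exact ⟨1, one_mem _, key 1 fun i hi => by omega⟩
  · have h1 := Nat.find_min ex (show j < Nat.find ex by omega)
    rw [mem_fixingSubgroup_iff] at h1
    push Not at h1
    obtain ⟨w, hw, h2⟩ := h1
    refine ⟨w, hw, key w fun i hi e => h2 ?_⟩
    obtain ⟨d, rfl⟩ := Nat.exists_eq_add_of_le (show i ≤ j by omega)
    rw [pow_add, pow_mul]
    exact pow_mem (show _ ∈ MulAction.stabilizer X w from e) _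

end RO

/-- PROOF. The `q`-elements of `H` form a cyclic group, whose subgroups are a chain; if some of
them acts non-trivially on `U` there is a `q`-element `c ∈ H` acting non-trivially on `U` and
lying in `zpowers a` for every such `a`. Among `w ∈ U` not fixed by `c` (all `w ∈ U` if there is
no `c`) take one with `H ⊓ stabilizer w` minimal. A `q`-element fixing `w` acts trivially. If a
`q'`-element `a ∈ H` fixes `w` and is non-trivial on `U`, take `1 ≠ u = a • v * v⁻¹`; the norm
map `ν = ∏ x ∈ zpowers a, x • ·` commutes with `H`, kills `u` and is injective on the fixed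
points of `a`, so the stabiliser of `w * u` in `H` fixes `w` and `u`, and `a` does not fix `u`.
A general element of the stabiliser is a product of its `q`- and `q'`-parts. -/
theorem reg_orbit {q : ℕ} [Fact q.Prime] (hW : IsPGroup q W) {H : Subgroup X}
    (hc : ∀ a ∈ H, ∀ b ∈ H, a * b = b * a) (hq : ∀ P ≤ H, IsPGroup q P → IsCyclic P)
    {U : Subgroup W} (hU : ∀ a ∈ H, ∀ u ∈ U, a • u ∈ U) :
    ∃ w ∈ U, ∀ a ∈ H, a • w = w → ∀ u ∈ U, a • u = u := by
  have hp : q.Prime := Fact.out
  obtain ⟨w, ⟨hw, hT⟩, hmin⟩ := Set.exists_min_image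
    {w | w ∈ U ∧ ∀ a ∈ H, (∃ k : ℕ, a ^ q ^ k = 1) → a • w = w → a ∈ fixingSubgroup X (U : Set W)}
    (fun w => Nat.card (H ⊓ MulAction.stabilizer X w : Subgroup X)) (Set.toFinite _) (RO.q_part hc hq U)
  refine ⟨w, hw, fun a ha e => (mem_fixingSubgroup_iff X).1 ?_⟩
  obtain ⟨k, n, hn, ho⟩ := Nat.exists_eq_pow_mul_and_not_dvd (orderOf_pos a).ne' q hp.ne_one
  have co : q.Coprime n := hp.coprime_iff_not_dvd.2 hn
  have hs : a ∈ MulAction.stabilizer X w := e
  have h1 : a ^ n ∈ fixingSubgroup X (U : Set W) :=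
    hT _ (pow_mem ha n) ⟨k, by rw [← pow_mul, mul_comm, ← ho, pow_orderOf_eq_one]⟩ (pow_mem hs n)
  have h2 : a ^ q ^ k ∈ fixingSubgroup X (U : Set W) := by
    have hn1 : (a ^ q ^ k) ^ n = 1 := by rw [← pow_mul, ← ho, pow_orderOf_eq_one]
    have hb := pow_mem ha (q ^ k)
    have hbs := pow_mem hs (q ^ k)
    generalize a ^ q ^ k = b at hn1 hb hbs
    have inj : ∀ x y : W, x ^ n = y ^ n → x = y := fun x y h => (hW.powEquiv co).injective h
    let ν : W → W := fun x => ∏ i ∈ Finset.range n, b ^ i • x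
    have n1 : ∀ x y, ν (x * y) = ν x * ν y := fun x y => by simp only [ν, smul_mul', Finset.prod_mul_distrib]
    have n2 : ∀ c ∈ H, ∀ x, c • ν x = ν (c • x) := fun c hc' x => by
      simp only [ν, Finset.smul_prod', smul_smul]
      exact Finset.prod_congr rfl fun i _ => by rw [hc c hc' _ (pow_mem hb i)]
    have n3 : ∀ x, ν (b • x) = ν x := fun x => by
      have := (Finset.prod_range_succ' (fun i => b ^ i • x) n).symm.trans (Finset.prod_range_succ (fun i => b ^ i • x) n)
      rw [hn1, pow_zero, mul_left_inj] at this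
      simpa only [ν, smul_smul, ← pow_succ] using this
    have n4 : ∀ x, b • x = x → ν x = x ^ n := fun x h => by
      rw [← Finset.card_range n, ← Finset.prod_const]
      exact Finset.prod_congr rfl fun i _ => pow_mem (show b ∈ MulAction.stabilizer X x from h) i
    refine (mem_fixingSubgroup_iff X).2 fun v hv => ?_
    have hu : b • v * v⁻¹ ∈ U := mul_mem (hU b hb v hv) (inv_mem hv)
    have n5 : ν (b • v * v⁻¹) = 1 := by
      rw [← mul_left_inj (ν v), ← n1, inv_mul_cancel_right, n3, one_mul]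
    rw [← mul_inv_eq_one]
    generalize b • v * v⁻¹ = u at hu n5
    have le : H ⊓ MulAction.stabilizer X (w * u) ≤ H ⊓ MulAction.stabilizer X w := fun c hc' =>
      ⟨hc'.1, inj _ _ (by
        have := n2 c hc'.1 (w * u)
        rwa [show c • (w * u) = w * u from hc'.2, n1, n5, mul_one, n4 w hbs, smul_pow'] at this)⟩
    have eq := eq_of_le_of_card_ge le (hmin (w * u) ⟨mul_mem hw hu, fun c hc' hk h => hT c hc' hk (le ⟨hc', h⟩).2⟩)
    have h3 : b • (w * u) = w * u := (eq ▸ mem_inf.2 ⟨hb, hbs⟩ : b ∈ H ⊓ MulAction.stabilizer X (w * u)).2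
    rw [smul_mul', show b • w = w from hbs, mul_right_inj] at h3
    exact inj _ _ (by rw [← n4 u h3, n5, one_pow])
  have bz := Nat.gcd_eq_gcd_ab (q ^ k) n
  rw [co.pow_left k] at bz
  have : a = (a ^ q ^ k) ^ (q ^ k).gcdA n * (a ^ n) ^ (q ^ k).gcdB n := by
    rw [← zpow_natCast, ← zpow_natCast, ← zpow_mul, ← zpow_mul, ← zpow_add, ← bz, Nat.cast_one, zpow_one]
  rw [this]
  exact mul_mem (zpow_mem h2 _) (zpow_mem h1 _)

/-- PROOF. `CL.FreeMod.free_of_frobenius` in the group `F ⊔ R` for `Additive W` over `ZMod q`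
(cf search first: FGS/KH, S4119, S4121, S4396 may have the counting form). -/
theorem card_fix {q : ℕ} [Fact q.Prime] (hW : ∀ w : W, w ^ q = 1) {F R : Subgroup X}
    (hR : R ≤ normalizer F) (hc : ∀ a ∈ F, ∀ b ∈ F, a * b = b * a)
    (fpf : ∀ r ∈ R, r ≠ 1 → ∀ x ∈ F, r * x = x * r → x = 1) (h0 : actFix W F = ⊥) :
    Nat.card (actFix W R) ^ Nat.card R = Nat.card W := by
  let md : Module (ZMod q) (Additive W) := AddCommGroup.zmodModule fun w => congrArg Additive.ofMul (hW w.toMul)
  have fd : FiniteDimensional (ZMod q) (Additive W) := Module.Finite.of_finite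
  have : (F.subgroupOf (F ⊔ R)).Normal := normal_subgroupOf_of_le_normalizer (sup_le le_normalizer hR)
  have nil : Group.IsNilpotent (F.subgroupOf (F ⊔ R)) := by
    let : CommGroup (F.subgroupOf (F ⊔ R)) :=
      { (inferInstance : Group (F.subgroupOf (F ⊔ R))) with
        mul_comm := fun a b => Subtype.ext (Subtype.ext (hc _ a.2 _ b.2)) }
    infer_instance
  have fr := @FreeMod.free_of_frobenius (ZMod q) (Additive W) (F ⊔ R : Subgroup X) _ _ md fd _ _ (RO.rep (F ⊔ R : Subgroup X) W q) (F.subgroupOf (F ⊔ R))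
    (R.subgroupOf (F ⊔ R)) _ (by rw [← subgroupOf_sup le_sup_left le_sup_right, subgroupOf_self]) nil
    (fun h hh h1 => (eq_bot_iff_forall _).2 fun x hx => Subtype.ext (fpf h hh (fun e => h1 (Subtype.ext e)) x hx.1
      (congrArg Subtype.val (hx.2 h rfl))))
    (fun v hv => by
      have : v.toMul ∈ actFix W F := fun f hf => congrArg Additive.toMul (hv ⟨f, mem_sup_left hf⟩ hf)
      rw [h0, mem_bot] at this
      exact congrArg Additive.ofMul this)
  have e := @RO.card_free _ _ _ _ _ md fd _ _ _ fr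
  rw [Nat.card_congr (subgroupOfEquivOfLe (le_sup_right : R ≤ F ⊔ R)).toEquiv] at e
  refine Eq.trans ?_ e.symm
  congr 1
  refine Nat.card_eq_of_bijective (fun w => ⟨Additive.ofMul w.1, fun g => congrArg Additive.ofMul (w.2 g.1.1 g.2)⟩)
    ⟨fun a b h => Subtype.ext (Additive.ofMul.injective (Subtype.mk.inj h)), fun v => ⟨⟨v.1.toMul, fun r hr =>
      congrArg Additive.toMul (v.2 ⟨⟨r, mem_sup_right hr⟩, hr⟩)⟩, rfl⟩⟩

end CL.N4
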